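import Cfsg.Agent.Lib.Helper22.Aut1
import Cfsg.Agent.Lib.Helper45.TwistGraph
import Cfsg.Prelude.Def_ChevAutomorphisms

/-!
# RUNG C of the ladder for the automorphisms of Chevalley groups: commutation of fundamental root elements
-/

set_option autoImplicit false
set_option maxRecDepth 100000

namespace Cfsg.Agent.Lib.Helper22
open Cfsg.Lie Matrix Cfsg.Agent.Lib.Helper23 Cfsg.Agent.Lib.Helper45

/-- table checks on a pair of fundamental roots. -/
def simpleChk (D : ChevalleyDatum) (i j : ℕ) : Bool :=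
  (i == j) ||
  (((D.bonds i j != 0) || (D.simple j != D.simple i && D.simple j != D.neg (D.simple i) &&
      (D.commTerms (D.simple i) (D.simple j)).isEmpty)) &&
    ((D.bonds i j == 0) || (D.reflectRoot i (D.simple j) != D.simple j)) &&
    (D.neg (D.simple j) != D.simple i && D.neg (D.simple j) != D.neg (D.simple i) &&
      (D.commTerms (D.simple i) (D.neg (D.simple j))).isEmpty))

def simpleChkAll (D : ChevalleyDatum) : Bool :=
  (List.range D.rank).all fun i => (List.range D.rank).all fun j => simpleChk D i j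

theorem simpleChkAll_of_mem {D : ChevalleyDatum}
    (hD : D ∈ [chevG2, chevB2, chevD4, chevF4, chevE6, chevE7, chevE8]) : simpleChkAll D = true := by
  simp only [List.mem_cons, List.not_mem_nil, or_false] at hD
  rcases hD with rfl | rfl | rfl | rfl | rfl | rfl | rfl <;> decide +kernel

theorem simpleTab {D : ChevalleyDatum}
    (hD : D ∈ [chevG2, chevB2, chevD4, chevF4, chevE6, chevE7, chevE8]) {i j : ℕ} (hi : i < D.rank)
    (hj : j < D.rank) (hij : i ≠ j) :
    (D.bonds i j = 0 → D.simple j ≠ D.simple i ∧ D.simple j ≠ D.neg (D.simple i) ∧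
      D.commTerms (D.simple i) (D.simple j) = []) ∧
    (D.bonds i j ≠ 0 → D.reflectRoot i (D.simple j) ≠ D.simple j) ∧
    (D.neg (D.simple j) ≠ D.simple i ∧ D.neg (D.simple j) ≠ D.neg (D.simple i) ∧
      D.commTerms (D.simple i) (D.neg (D.simple j)) = []) := by
  have h := simpleChkAll_of_mem hD
  unfold simpleChkAll at h
  rw [List.all_eq_true] at h
  have h1 := h i (List.mem_range.2 hi)
  rw [List.all_eq_true] at h1
  have h2 := h1 j (List.mem_range.2 hj)
  unfold simpleChk at h2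
  simp only [Bool.or_eq_true, Bool.and_eq_true, beq_iff_eq, bne_iff_ne, ne_eq, List.isEmpty_iff, hij,
    false_or] at h2
  obtain ⟨⟨h3, h4⟩, h5⟩ := h2
  refine ⟨fun h0 => ?_, fun h0 => ?_, ?_⟩
  · rcases h3 with h3 | h3
    · exact absurd h0 h3
    · exact ⟨h3.1.1, h3.1.2, h3.2⟩
  · rcases h4 with h4 | h4
    · exact absurd h4 h0
    · exact h4
  · exact ⟨h5.1.1, h5.1.2, h5.2⟩

variable {D : ChevalleyDatum} {F : Type*} [Field F]

theorem X_commute_of_terms (hD : D ∈ [chevG2, chevB2, chevD4, chevF4, chevE6, chevE7, chevE8])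
    {r s : ℕ} (hr : r < D.nroots) (hs : s < D.nroots) (h1 : s ≠ r) (h2 : s ≠ D.neg r)
    (h3 : D.commTerms r s = []) (t u : F) : D.x F r t * D.x F s u = D.x F s u * D.x F r t := by
  have := Cfsg.Agent.S1025.result (F := F) D hD r s hr hs h1 h2 t u
  have hw : D.commWord F r s t u = [] := by
    unfold ChevalleyDatum.commWord
    rw [h3]; rfl
  rw [hw] at this
  rw [this]
  simp [ChevalleyDatum.wordMat]

/-- distinct positive root subgroups meet trivially. -/
theorem X_eq_X_pos (hD : D ∈ [chevG2, chevB2, chevD4, chevF4, chevE6, chevE7, chevE8]) (hA : AddFact D F)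
    {r s : ℕ} (hr : D.IsPosRoot r) (hs : D.IsPosRoot s) (hrs : r ≠ s) {a c : F}
    (h : hA.X r a = hA.X s c) : a = 0 := by
  have h1 : hA.W (wL [r, s] fun k => if k = r then a else 0) = hA.W (wL [r, s] fun k => if k = r then 0 else c) := by
    simp only [wL, List.map_cons, List.map_nil, AddFact.W, List.prod_cons, List.prod_nil, if_true, mul_one,
      if_neg (Ne.symm hrs), hA.X_zero, one_mul]
    exact h
  have h2 := factor_unique hA (uComm_of_mem F hD) (uSep_of_mem hD hA) (L := [r, s]) (by simp [hrs])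
    (by
      intro k hk
      simp only [List.mem_cons, List.not_mem_nil, or_false] at hk
      rcases hk with rfl | rfl
      · exact hr
      · exact hs) h1 r (by simp)
  simpa using h2

theorem simple_comm {F : Type*} [Field F] (D : ChevalleyDatum)
    (hD : D ∈ [chevG2, chevB2, chevD4, chevF4, chevE6, chevE7, chevE8]) :
    (∀ i j : Fin D.rank, i ≠ j → D.bonds i j = 0 → ∀ t u : F, D.x F (D.simple i) t * D.x F (D.simple j) u = D.x F (D.simple j) u * D.x F (D.simple i) t) ∧
    (∀ i j : Fin D.rank, i ≠ j → D.bonds i j ≠ 0 → D.x F (D.simple i) 1 * D.x F (D.simple j) 1 ≠ D.x F (D.simple j) 1 * D.x F (D.simple i) 1) ∧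
    (∀ i j : Fin D.rank, i ≠ j → ∀ t u : F, D.x F (D.simple i) t * D.x F (D.neg (D.simple j)) u = D.x F (D.neg (D.simple j)) u * D.x F (D.simple i) t) ∧
    (∀ i : Fin D.rank, D.x F (D.simple i) 1 * D.x F (D.neg (D.simple i)) 1 ≠ D.x F (D.neg (D.simple i)) 1 * D.x F (D.simple i) 1) := by
  have b := bundle_of_mem F hD
  have hne : ∀ i j : Fin D.rank, i ≠ j → (i : ℕ) ≠ j := fun i j h h' => h (Fin.ext h')
  have h3 : ∀ i j : Fin D.rank, i ≠ j → ∀ t u : F, D.x F (D.simple i) t * D.x F (D.neg (D.simple j)) u =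
      D.x F (D.neg (D.simple j)) u * D.x F (D.simple i) t := by
    intro i j hij t u
    obtain ⟨-, -, h1, h2, h3⟩ := simpleTab hD i.isLt j.isLt (hne i j hij)
    exact X_commute_of_terms hD (b.hR.simple_lt i.isLt) (b.hR.neg_lt (b.hR.simple_lt j.isLt)) h1 h2 h3 t u
  refine ⟨?_, ?_, h3, ?_⟩
  · intro i j hij h0 t u
    obtain ⟨h1, -, -⟩ := simpleTab hD i.isLt j.isLt (hne i j hij)
    obtain ⟨h1, h2, h3⟩ := h1 h0
    exact X_commute_of_terms hD (b.hR.simple_lt i.isLt) (b.hR.simple_lt j.isLt) h1 h2 h3 t u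
  · intro i j hij h0 hc
    obtain ⟨-, h1, -⟩ := simpleTab hD i.isLt j.isLt (hne i j hij)
    have h1 := h1 h0
    have c1 : Commute (b.hA.X (D.simple i) 1) (b.hA.X (D.simple j) 1) := by
      apply Units.ext
      simp only [Units.val_mul, b.hA.coe_X]
      exact hc
    have c2 : Commute (b.hA.X (D.neg (D.simple i)) (-(1 : F)⁻¹)) (b.hA.X (D.simple j) 1) := by
      apply Units.ext
      simp only [Units.val_mul, b.hA.coe_X]
      exact (h3 j i (Ne.symm hij) _ _).symm
    have c3 : Commute (b.hA.nn i) (b.hA.X (D.simple j) 1) := (c1.mul_left c2).mul_left c1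
    obtain ⟨ε, e1, -, e3⟩ := b.hA.nn_conj b.hR b.hN i.isLt
    have e4 := e3 _ (b.hR.simple_lt j.isLt) 1
    rw [c3.eq, mul_inv_cancel_right] at e4
    have hsj : D.simple j ≠ D.simple i := by
      intro h
      rw [h, RootFacts.refl_simple] at e4
      have h5 : b.hA.X (D.simple i) 1 ∈ D.posUnipotent F ⊓ D.negUnipotent F :=
        ⟨b.hA.X_mem_pos (b.hR.simple_pos i.isLt) 1, e4 ▸ b.hA.X_mem_neg (b.hR.neg_of_pos (b.hR.simple_pos i.isLt)) _⟩
      rw [pos_inf_neg b, Subgroup.mem_bot] at h5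
      exact one_ne_zero (b.hA.X_eq_one b.hTri (b.hR.simple_lt i.isLt) h5)
    exact one_ne_zero (X_eq_X_pos hD b.hA (b.hR.simple_pos j.isLt)
      (b.hR.refl_pos i.isLt (b.hR.simple_pos j.isLt) hsj) (Ne.symm h1) e4)
  · intro i hc
    have c1 : Commute (b.hA.X (D.neg (D.simple i)) 1) (b.hA.X (D.simple i) 1) := by
      apply Units.ext
      simp only [Units.val_mul, b.hA.coe_X]
      exact hc.symm
    have c2 : Commute (b.hA.X (D.neg (D.simple i)) (-(1 : F)⁻¹)) (b.hA.X (D.simple i) 1) := by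
      have : b.hA.X (D.neg (D.simple i)) (-(1 : F)⁻¹) = (b.hA.X (D.neg (D.simple i)) 1)⁻¹ := by
        rw [b.hA.X_inv, inv_one]
      rw [this]
      exact c1.inv_left
    have c3 : Commute (b.hA.nn i) (b.hA.X (D.simple i) 1) :=
      ((Commute.refl _).mul_left c2).mul_left (Commute.refl _)
    obtain ⟨ε, e1, -, e3⟩ := b.hA.nn_conj b.hR b.hN i.isLt
    have e4 := e3 _ (b.hR.simple_lt i.isLt) 1
    rw [c3.eq, mul_inv_cancel_right, RootFacts.refl_simple] at e4
    have h5 : b.hA.X (D.simple i) 1 ∈ D.posUnipotent F ⊓ D.negUnipotent F :=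
      ⟨b.hA.X_mem_pos (b.hR.simple_pos i.isLt) 1, e4 ▸ b.hA.X_mem_neg (b.hR.neg_of_pos (b.hR.simple_pos i.isLt)) _⟩
    rw [pos_inf_neg b, Subgroup.mem_bot] at h5
    exact one_ne_zero (b.hA.X_eq_one b.hTri (b.hR.simple_lt i.isLt) h5)

end Cfsg.Agent.Lib.Helper22
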