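import Cfsg.Agent.Lib.Helper23.ChevAll
import Cfsg.Agent.S2157
import Cfsg.Prelude.Def_ChevAutomorphisms

/-!
# RUNG D: root characters with prescribed values on the fundamental roots, diagonal automorphisms (general part)
-/

set_option autoImplicit false

namespace Cfsg.Agent.Lib.Helper22
open Cfsg.Lie Matrix Cfsg.Agent.Lib.Helper23

/-- check that `co` is a table of coordinates of the roots with respect to the fundamental roots. -/
def coChk (D : ChevalleyDatum) (co : ℕ → ℕ → ℤ) : Bool :=
  ((List.range D.nroots).all fun r =>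
    ((List.range D.rank).all fun j => co (D.neg r) j == - co r j) &&
    ((D.chain.getD r #[]).toList.all fun e =>
      match e.2.toList with
      | [] => true
      | k :: _ => (List.range D.rank).all fun j => co k.1 j == co r j + co e.1 j)) &&
  ((List.range D.rank).all fun i => (List.range D.rank).all fun j =>
    co (D.simple i) j == if i = j then 1 else 0)

variable {D : ChevalleyDatum} {co : ℕ → ℕ → ℤ}

theorem coChk_neg (h : coChk D co = true) {r : ℕ} (hr : r < D.nroots) {j : ℕ} (hj : j < D.rank) :
    co (D.neg r) j = - co r j := by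
  unfold coChk at h
  rw [Bool.and_eq_true, List.all_eq_true] at h
  have h1 := h.1 r (List.mem_range.2 hr)
  rw [Bool.and_eq_true, List.all_eq_true] at h1
  simpa using h1.1 j (List.mem_range.2 hj)

theorem coChk_add (h : coChk D co = true) {r s k : ℕ} (hr : r < D.nroots)
    (hk : D.chainRoot r s 1 = some k) {j : ℕ} (hj : j < D.rank) : co k j = co r j + co s j := by
  unfold coChk at h
  rw [Bool.and_eq_true, List.all_eq_true] at h
  have h1 := h.1 r (List.mem_range.2 hr)
  rw [Bool.and_eq_true, List.all_eq_true, List.all_eq_true] at h1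
  unfold ChevalleyDatum.chainRoot ChevalleyDatum.chainEntry at hk
  cases hf : (D.chain.getD r #[]).toList.find? (fun e => e.1 = s) with
  | none => rw [hf] at hk; simp at hk
  | some e =>
    rw [hf] at hk
    have he := List.mem_of_find?_eq_some hf
    have hes : e.1 = s := by simpa using List.find?_some hf
    have h2 := h1.2 e he
    cases hl : e.2.toList with
    | nil => simp [hl] at hk
    | cons k' tl =>
      rw [hl] at h2
      simp only [hl] at hk
      have hk' : k'.1 = k := by simpa using hk
      simp only [List.all_eq_true] at h2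
      have h3 := h2 j (List.mem_range.2 hj)
      rw [hk', hes] at h3
      simpa using h3

theorem coChk_simple (h : coChk D co = true) {i j : ℕ} (hi : i < D.rank) (hj : j < D.rank) :
    co (D.simple i) j = if i = j then 1 else 0 := by
  unfold coChk at h
  rw [Bool.and_eq_true, List.all_eq_true, List.all_eq_true] at h
  have h1 := h.2 i (List.mem_range.2 hi)
  rw [List.all_eq_true] at h1
  simpa using h1 j (List.mem_range.2 hj)

/-- the character of the root lattice with given values on the fundamental roots. -/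
noncomputable def rootChar {F : Type*} [Field F] (D : ChevalleyDatum) (co : ℕ → ℕ → ℤ) (c : Fin D.rank → Fˣ)
    (r : ℕ) : Fˣ := ∏ j : Fin D.rank, c j ^ co r j

theorem rootChar_isRootCharacter {F : Type*} [Field F] (h : coChk D co = true) (c : Fin D.rank → Fˣ) :
    D.IsRootCharacter (rootChar D co c) := by
  constructor
  · intro r hr
    unfold rootChar
    rw [← Finset.prod_inv_distrib]
    apply Finset.prod_congr rfl
    intro j _
    rw [coChk_neg h hr j.isLt, _root_.zpow_neg]
  · intro r s k hr hs hk
    unfold rootChar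
    rw [← Finset.prod_mul_distrib]
    apply Finset.prod_congr rfl
    intro j _
    rw [coChk_add h hr hk j.isLt, _root_.zpow_add]

theorem rootChar_simple {F : Type*} [Field F] (h : coChk D co = true) (c : Fin D.rank → Fˣ) (i : Fin D.rank) :
    rootChar D co c (D.simple i) = c i := by
  unfold rootChar
  rw [Finset.prod_eq_single i]
  · rw [coChk_simple h i.isLt i.isLt, if_pos rfl, zpow_one]
  · intro j _ hj
    rw [coChk_simple h i.isLt j.isLt, if_neg (fun e => hj (Fin.ext e.symm)), zpow_zero]
  · intro hi
    exact absurd (Finset.mem_univ i) hi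

theorem charDiag_mul {F : Type*} [Field F] (D : ChevalleyDatum) (χ : ℕ → Fˣ) :
    D.charDiag F χ * D.charDiag F (fun r => (χ r)⁻¹) = 1 := by
  unfold ChevalleyDatum.charDiag
  rw [Matrix.diagonal_mul_diagonal, ← Matrix.diagonal_one]
  congr 1
  funext idx
  rcases idx with i | r <;> simp

theorem IsRootCharacter.inv {F : Type*} [Field F] {χ : ℕ → Fˣ} (hχ : D.IsRootCharacter χ) :
    D.IsRootCharacter fun r => (χ r)⁻¹ := by
  refine ⟨fun r hr => ?_, fun r s k hr hs hk => ?_⟩
  · show (χ (D.neg r))⁻¹ = ((χ r)⁻¹)⁻¹
    rw [hχ.1 r hr]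
  · show (χ k)⁻¹ = (χ r)⁻¹ * (χ s)⁻¹
    rw [hχ.2 r s k hr hs hk, mul_inv]

/-- the diagonal automorphism attached to a root character. -/
theorem exists_diagAut_of_char {F : Type*} [Field F] (D : ChevalleyDatum)
    (hD : D ∈ [chevG2, chevB2, chevD4, chevF4, chevE6, chevE7, chevE8]) (χ : ℕ → Fˣ) (hχ : D.IsRootCharacter χ) :
    ∃ d : ↥(D.group F) ≃* ↥(D.group F), ∀ g : ↥(D.group F), ((d g : GL D.Idx F) : Matrix D.Idx D.Idx F) =
      D.charDiag F χ * ((g : GL D.Idx F) : Matrix D.Idx D.Idx F) * D.charDiag F (fun r => (χ r)⁻¹) := by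
  have hA := (bundle_of_mem F hD).hA
  have h1 := charDiag_mul (F := F) D χ
  have h2 : D.charDiag F (fun r => (χ r)⁻¹) * D.charDiag F χ = 1 := by
    have := charDiag_mul (F := F) D (fun r => (χ r)⁻¹)
    simpa using this
  let P : GL D.Idx F := ⟨D.charDiag F χ, D.charDiag F (fun r => (χ r)⁻¹), h1, h2⟩
  have hP : ∀ r < D.nroots, ∀ t : F, P * hA.X r t * P⁻¹ = hA.X r ((χ r : F) * t) := by
    intro r hr t
    apply Units.ext
    rw [Units.val_mul, Units.val_mul, hA.coe_X, hA.coe_X]
    exact Cfsg.Agent.S2157.result D hD χ hχ r hr t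
  have hmap : (D.group F).map (MulAut.conj P).toMonoidHom = D.group F := by
    apply le_antisymm
    · rw [Subgroup.map_le_iff_le_comap]
      conv_lhs => rw [hA.group_eq]
      rw [Subgroup.closure_le]
      rintro x ⟨s, t, hs, rfl⟩
      show P * hA.X s t * P⁻¹ ∈ D.group F
      rw [hP s hs]
      exact hA.X_mem_group _ _
    · conv_lhs => rw [hA.group_eq]
      rw [Subgroup.closure_le]
      rintro x ⟨r, t, hr, rfl⟩
      refine ⟨hA.X r (((χ r)⁻¹ : Fˣ) * t), hA.X_mem_group _ _, ?_⟩
      show P * hA.X r (((χ r)⁻¹ : Fˣ) * t) * P⁻¹ = _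
      rw [hP r hr, ← mul_assoc]
      simp
  exact ⟨((MulAut.conj P).subgroupMap (D.group F)).trans (MulEquiv.subgroupCongr hmap), fun g => rfl⟩

end Cfsg.Agent.Lib.Helper22
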