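import Cfsg.Agent.Lib.Helper22.AutD
import Cfsg.Agent.Lib.Helper22.HCardG2
import Cfsg.Agent.Lib.Helper22.HCardB2
import Cfsg.Agent.Lib.Helper22.HCardD4
import Cfsg.Agent.Lib.Helper22.HCardF4
import Cfsg.Agent.Lib.Helper22.HCardE6
import Cfsg.Agent.Lib.Helper22.HCardE7
import Cfsg.Agent.Lib.Helper22.HCardE8

/-!
# RUNG D: diagonal automorphisms with prescribed values on the fundamental roots
-/

set_option autoImplicit false
set_option maxRecDepth 1000000
set_option maxHeartbeats 0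

namespace Cfsg.Agent.Lib.Helper22
open Cfsg.Lie Matrix Cfsg.Agent.Lib.Helper23

theorem coChkG2 : coChk chevG2 (fun s j => dc (coLook 2 roG2 s j)) = true := by decide +kernel
theorem coChkB2 : coChk chevB2 (fun s j => dc (coLook 2 roB2 s j)) = true := by decide +kernel
theorem coChkD4 : coChk chevD4 (fun s j => dc (coLook 4 roD4 s j)) = true := by decide +kernel
theorem coChkF4 : coChk chevF4 (fun s j => dc (coLook 4 roF4 s j)) = true := by decide +kernel
theorem coChkE6 : coChk chevE6 (fun s j => dc (coLook 6 roE6 s j)) = true := by decide +kernel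
theorem coChkE7 : coChk chevE7 (fun s j => dc (coLook 7 roE7 s j)) = true := by decide +kernel
theorem coChkE8 : coChk chevE8 (fun s j => dc (coLook 8 roE8 s j)) = true := by decide +kernel

theorem exists_coChk (D : ChevalleyDatum) (hD : D ∈ [chevG2, chevB2, chevD4, chevF4, chevE6, chevE7, chevE8]) :
    ∃ co : ℕ → ℕ → ℤ, coChk D co = true := by
  simp only [List.mem_cons, List.not_mem_nil, or_false] at hD
  rcases hD with rfl | rfl | rfl | rfl | rfl | rfl | rfl
  exacts [⟨_, coChkG2⟩, ⟨_, coChkB2⟩, ⟨_, coChkD4⟩, ⟨_, coChkF4⟩, ⟨_, coChkE6⟩, ⟨_, coChkE7⟩, ⟨_, coChkE8⟩]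

/-- RUNG D. -/
theorem exists_diagAut {F : Type*} [Field F] (D : ChevalleyDatum)
    (hD : D ∈ [chevG2, chevB2, chevD4, chevF4, chevE6, chevE7, chevE8]) (c : Fin D.rank → Fˣ) :
    ∃ (χ : ℕ → Fˣ) (d : ↥(D.group F) ≃* ↥(D.group F)), D.IsRootCharacter χ ∧
      (∀ i : Fin D.rank, χ (D.simple i) = c i) ∧
      ∀ g : ↥(D.group F), ((d g : GL D.Idx F) : Matrix D.Idx D.Idx F) =
        D.charDiag F χ * ((g : GL D.Idx F) : Matrix D.Idx D.Idx F) * D.charDiag F (fun r => (χ r)⁻¹) := by
  obtain ⟨co, hco⟩ := exists_coChk D hD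
  obtain ⟨d, hd⟩ := exists_diagAut_of_char D hD (rootChar D co c) (rootChar_isRootCharacter hco c)
  exact ⟨rootChar D co c, d, rootChar_isRootCharacter hco c, rootChar_simple hco c, hd⟩

end Cfsg.Agent.Lib.Helper22
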