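import Cfsg.Agent.Lib.Helper22.UAll
import Cfsg.Agent.Lib.Helper22.AutD
import Cfsg.Agent.Lib.Helper23.NAll0

/-!
# Parabolic subgroups: table facts
-/

set_option autoImplicit false

namespace Cfsg.Agent.Lib.Helper22
open Cfsg.Lie Matrix Cfsg.Agent.Lib.Helper23

/-- table facts (packed form) for the parabolic subgroups. -/
structure ParTab (T : Tb) (NT SI RO : ℕ) (ct : ℕ → ℕ → List (ℕ × ℤ × ℕ × ℕ)) : Prop where
  refl : ∀ j < T.l, ∀ r < T.n, ∀ i < T.l, i ≠ j →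
    coLook T.l T.CO (nTgt T.n NT j r) i = coLook T.l T.CO r i
  simp : ∀ i < T.l, ∀ j < T.l, dc (coLook T.l T.CO (sLook SI i) j) = if i = j then 1 else 0
  neg : ∀ r < T.n, ∀ j < T.l, dc (coLook T.l T.CO (T.n - 1 - r) j) = - dc (coLook T.l T.CO r j)
  desc : ∀ r < T.n, T.n ≤ 2 * r → ∃ j < T.l, dc (coLook T.l T.CO r j) ≠ 0 ∧
    (r = sLook SI j ∨ nTgt T.n NT j r < r)
  conn : ∀ i < T.l, ∀ j < T.l, i ≠ j → ∃ r < T.n, T.n ≤ 2 * r ∧ dc (coLook T.l T.CO r i) ≠ 0 ∧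
    r < nTgt T.n NT j r
  ideal : ∀ a < T.n, T.n ≤ 2 * a → ∀ b < T.n, T.n ≤ 2 * b → a ≠ b → ∀ c ∈ ct a b, ∀ i < T.l,
    dc (coLook T.l T.CO b i) ≠ 0 → dc (coLook T.l T.CO c.1 i) ≠ 0
  sg : ∀ r < T.n, ∀ j < T.l, (dc (coLook T.l RO r j)).sign = (dc (coLook T.l T.CO r j)).sign

/-- check that `co` is additive along all the chains. -/
def coChk3 (D : ChevalleyDatum) (co : ℕ → ℕ → ℤ) : Bool :=
  (List.range D.nroots).all fun r =>
    (D.chain.getD r #[]).toList.all fun e =>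
      e.2.toList.zipIdx.all fun q =>
        (List.range D.rank).all fun j => co q.1.1 j == co e.1 j + ((q.2 + 1 : ℕ) : ℤ) * co r j

end Cfsg.Agent.Lib.Helper22
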