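import Cfsg.Agent.Lib.Helper22.Par1

/-!
# Parabolic subgroups: table facts, in terms of the datum
-/

set_option autoImplicit false

namespace Cfsg.Agent.Lib.Helper22
open Cfsg.Lie Matrix Cfsg.Agent.Lib.Helper23

/-- coefficient of the coroot -/
def cf (D : ChevalleyDatum) (r i : ℕ) : ℤ := (D.coroot.getD r #[]).getD i 0

/-- facts on the root system used for the parabolic subgroups. -/
structure ParFacts (D : ChevalleyDatum) (co : ℕ → ℕ → ℤ) : Prop where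
  refl : ∀ j < D.rank, ∀ r < D.nroots, ∀ i < D.rank, i ≠ j → cf D (D.reflectRoot j r) i = cf D r i
  simp : ∀ i < D.rank, ∀ j < D.rank, cf D (D.simple i) j = if i = j then 1 else 0
  neg : ∀ r < D.nroots, ∀ j < D.rank, cf D (D.neg r) j = - cf D r j
  desc : ∀ r, D.IsPosRoot r → ∃ j < D.rank, cf D r j ≠ 0 ∧ (r = D.simple j ∨ D.reflectRoot j r < r)
  conn : ∀ i < D.rank, ∀ j < D.rank, i ≠ j → ∃ r, D.IsPosRoot r ∧ cf D r i ≠ 0 ∧ r < D.reflectRoot j r
  ideal : ∀ a b, D.IsPosRoot a → D.IsPosRoot b → a ≠ b → ∀ c ∈ D.commTerms a b,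
    D.IsPosRoot c.1 ∧ ∀ i < D.rank, cf D b i ≠ 0 → cf D c.1 i ≠ 0
  sg : ∀ r < D.nroots, ∀ j < D.rank, (co r j).sign = (cf D r j).sign
  cneg : ∀ r < D.nroots, ∀ j < D.rank, co (D.neg r) j = - co r j
  chain : coChk3 D co = true

theorem parFacts_of {D : ChevalleyDatum} {T : Tb} {NT SI RO LV : ℕ} {ct : ℕ → ℕ → List (ℕ × ℤ × ℕ × ℕ)}
    (V : T.Valid D) (hsz : D.chain.size = T.n) (hU : UTabOK T LV ct)
    (hct : ∀ r s, ct r s = commTermsOf (ceF T) r s) (hs : ∀ r < T.n, sgnChk T r = true)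
    (W : NValid T NT SI D) (Fa : NFacts T NT SI D) (P : ParTab T NT SI RO ct)
    (h1 : coChk D (fun s j => dc (coLook T.l RO s j)) = true)
    (h3 : coChk3 D (fun s j => dc (coLook T.l RO s j)) = true) :
    ParFacts D (fun s j => dc (coLook T.l RO s j)) := by
  have hn := V.hn
  have hl := V.hl
  have hpos := isPosRoot_iff V hs
  have hcf : ∀ r < T.n, ∀ i < T.l, cf D r i = dc (coLook T.l T.CO r i) := fun r hr i hi => V.co_eq hi hr
  refine ⟨?_, ?_, ?_, ?_, ?_, ?_, ?_, ?_, h3⟩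
  · intro j hj r hr i hi hij
    rw [← hl] at hj hi
    rw [← hn] at hr
    rw [Fa.refl j hj r hr, hcf _ (Fa.tgt j hj r hr).1 i hi, hcf r hr i hi, P.refl j hj r hr i hi hij]
  · intro i hi j hj
    rw [← hl] at hi hj
    rw [(W.hs i hi).1, hcf _ (W.hs i hi).2 j hj, P.simp i hi j hj]
  · intro r hr j hj
    rw [← hl] at hj
    rw [← hn] at hr
    rw [V.neg_eq' hr, hcf _ (by omega) j hj, hcf r hr j hj, P.neg r hr j hj]
  · intro r hr
    obtain ⟨h1, h2⟩ := (hpos r).1 hr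
    rw [← hn] at h1 h2
    obtain ⟨j, hj, h3, h4⟩ := P.desc r h1 h2
    refine ⟨j, hl ▸ hj, ?_, ?_⟩
    · rw [hcf r h1 j hj]; exact h3
    · rw [(W.hs j hj).1, Fa.refl j hj r h1]; exact h4
  · intro i hi j hj hij
    rw [← hl] at hi hj
    obtain ⟨r, hr, h2, h3, h4⟩ := P.conn i hi j hj hij
    refine ⟨r, (hpos r).2 ⟨hn ▸ hr, hn ▸ h2⟩, ?_, ?_⟩
    · rw [hcf r hr i hi]; exact h3
    · rw [Fa.refl j hj r hr]; exact h4
  · intro a b ha hb hab c hc
    rw [commTerms_eq, chainEntry_eq_ceF V hsz, ← hct] at hc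
    have ha' := (hpos a).1 ha
    have hb' := (hpos b).1 hb
    rw [← hn] at ha' hb'
    have h5 := c1Chk_iff.1 (hU.hc1 a ha'.1 ha'.2) b hb'.1 hb'.2 hab c hc
    refine ⟨(hpos _).2 ?_, ?_⟩
    · rw [← hn]
      exact ⟨h5.2.2, by omega⟩
    · intro i hi
      rw [← hl] at hi
      rw [hcf b hb'.1 i hi, hcf _ h5.2.2 i hi]
      exact P.ideal a ha'.1 ha'.2 b hb'.1 hb'.2 hab c hc i hi
  · intro r hr j hj
    rw [← hl] at hj
    rw [← hn] at hr
    rw [hcf r hr j hj]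
    exact P.sg r hr j hj
  · intro r hr j hj
    exact coChk_neg h1 hr hj

end Cfsg.Agent.Lib.Helper22
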