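import Cfsg.Agent.Lib.Helper22.Par2
import Cfsg.Agent.Lib.Helper23.ChevAll

/-!
# Parabolic subgroups: generation and the normality of the unipotent radical
-/

set_option autoImplicit false

namespace Cfsg.Agent.Lib.Helper22
open Cfsg.Lie Matrix Cfsg.Agent.Lib.Helper23

variable {D : ChevalleyDatum} {F : Type*} [Field F] {co : ℕ → ℕ → ℤ}

/-- the commutator formula -/
def CommF (D : ChevalleyDatum) (F : Type*) [Field F] : Prop :=
  ∀ r s, r < D.nroots → s < D.nroots → s ≠ r → s ≠ D.neg r → ∀ t u : F,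
    D.x F s u * D.x F r t = D.x F r t * D.x F s u * D.wordMat F (D.commWord F r s t u)

namespace ParFacts
variable (pf : ParFacts D co) (hR : RootFacts D)
include pf hR

theorem inRootSub_simple {J : Set ℕ} {j : ℕ} (hj : j < D.rank) (hJ : j ∈ J) : D.InRootSub J (D.simple j) :=
  ⟨hR.simple_lt hj, fun i hi hiJ => by
    show cf D _ _ = 0
    rw [pf.simp j hj i hi, if_neg]
    rintro rfl
    exact hiJ hJ⟩

omit hR in
theorem not_inRootSub_simple {J : Set ℕ} {j : ℕ} (hj : j < D.rank) (hJ : j ∉ J) :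
    ¬ D.InRootSub J (D.simple j) := fun h => by
  have h1 : cf D (D.simple j) j = 0 := h.2 j hj hJ
  rw [pf.simp j hj j hj, if_pos rfl] at h1
  exact one_ne_zero h1

theorem inRootSub_neg {J : Set ℕ} {r : ℕ} (h : D.InRootSub J r) : D.InRootSub J (D.neg r) :=
  ⟨hR.neg_lt h.1, fun i hi hiJ => by
    show cf D _ _ = 0
    have h1 : cf D r i = 0 := h.2 i hi hiJ
    rw [pf.neg r h.1 i hi, h1, neg_zero]⟩

theorem inRootSub_refl {J : Set ℕ} {j r : ℕ} (hj : j < D.rank) (hJ : j ∈ J) (h : D.InRootSub J r) :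
    D.InRootSub J (D.reflectRoot j r) :=
  ⟨hR.refl_lt hj h.1, fun i hi hiJ => by
    show cf D _ _ = 0
    rw [pf.refl j hj r h.1 i hi (by rintro rfl; exact hiJ hJ)]
    exact h.2 i hi hiJ⟩

theorem not_inRootSub_refl {J : Set ℕ} {j r : ℕ} (hj : j < D.rank) (hJ : j ∈ J) (hr : r < D.nroots)
    (h : ¬ D.InRootSub J r) : ¬ D.InRootSub J (D.reflectRoot j r) := fun h' => h (by
  have := pf.inRootSub_refl hR hj hJ h'
  rwa [hR.refl_refl hj hr] at this)

omit pf hR in
theorem not_inRootSub_of_supp {J : Set ℕ} {r p : ℕ} (hr : r < D.nroots) (h : ¬ D.InRootSub J r)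
    (hs : ∀ i < D.rank, cf D r i ≠ 0 → cf D p i ≠ 0) : ¬ D.InRootSub J p := by
  intro hp
  apply h
  refine ⟨hr, fun i hi hiJ => ?_⟩
  by_contra hne
  exact hs i hi hne (hp.2 i hi hiJ)

end ParFacts

section gens
variable (hA : AddFact D F)

theorem parabolic_eq (J : Set ℕ) : D.parabolicSubgroup F J = D.borelSubgroup F ⊔
    Subgroup.closure {g | ∃ j ∈ J, j < D.rank ∧ g = hA.nn j} := by
  unfold ChevalleyDatum.parabolicSubgroup
  congr 2
  ext g
  simp only [Set.mem_ofPred_eq, hA.eq_nG_iff, AddFact.nn]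

theorem unipotentRadical_eq (J : Set ℕ) : D.unipotentRadical F J =
    Subgroup.closure {g | ∃ (r : ℕ) (t : F), D.IsPosRoot r ∧ ¬ D.InRootSub J r ∧ g = hA.X r t} := by
  unfold ChevalleyDatum.unipotentRadical
  congr 1
  ext g
  simp only [Set.mem_ofPred_eq, hA.eq_X_iff]

theorem levi_eq (J : Set ℕ) : D.leviSubgroup F J = D.diagonalSubgroup F ⊔
    Subgroup.closure {g | ∃ (r : ℕ) (t : F), D.InRootSub J r ∧ g = hA.X r t} := by
  unfold ChevalleyDatum.leviSubgroup
  congr 2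
  ext g
  simp only [Set.mem_ofPred_eq, hA.eq_X_iff]

theorem borel_le_par (J : Set ℕ) : D.borelSubgroup F ≤ D.parabolicSubgroup F J := le_sup_left

theorem nn_mem_par {J : Set ℕ} {j : ℕ} (hj : j < D.rank) (hJ : j ∈ J) : hA.nn j ∈ D.parabolicSubgroup F J := by
  rw [parabolic_eq hA]
  exact (le_sup_right : _ ≤ D.borelSubgroup F ⊔ _) (Subgroup.subset_closure ⟨j, hJ, hj, rfl⟩)

theorem X_mem_UJ {J : Set ℕ} {r : ℕ} (hr : D.IsPosRoot r) (hJ : ¬ D.InRootSub J r) (t : F) :
    hA.X r t ∈ D.unipotentRadical F J := by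
  rw [unipotentRadical_eq hA]
  exact Subgroup.subset_closure ⟨r, t, hr, hJ, rfl⟩

theorem X_mem_levi {J : Set ℕ} {r : ℕ} (hJ : D.InRootSub J r) (t : F) :
    hA.X r t ∈ D.leviSubgroup F J := by
  rw [levi_eq hA]
  exact (le_sup_right : _ ≤ D.diagonalSubgroup F ⊔ _) (Subgroup.subset_closure ⟨r, t, hJ, rfl⟩)

include hA in
theorem UJ_le_pos (J : Set ℕ) : D.unipotentRadical F J ≤ D.posUnipotent F := by
  rw [unipotentRadical_eq hA, Subgroup.closure_le]
  rintro g ⟨r, t, hr, _, rfl⟩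
  exact hA.X_mem_pos hr t

theorem W_mem_UJ {J : Set ℕ} {w : List (ℕ × F)} (hw : ∀ p ∈ w, D.IsPosRoot p.1 ∧ ¬ D.InRootSub J p.1) :
    hA.W w ∈ D.unipotentRadical F J := by
  induction w with
  | nil => exact one_mem _
  | cons p l ih =>
    rw [W_cons]
    exact mul_mem (X_mem_UJ hA (hw p (by simp)).1 (hw p (by simp)).2 _)
      (ih fun q hq => hw q (by simp [hq]))

end gens

section main
variable (b : Bundle D F) (pf : ParFacts D co)
include b pf

/-- the negative root subgroups of `Φ_J` lie in `P_J`. -/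
theorem X_neg_mem_par (J : Set ℕ) : ∀ r, D.IsPosRoot r → D.InRootSub J r → ∀ t : F,
    b.hA.X (D.neg r) t ∈ D.parabolicSubgroup F J := by
  intro r
  induction r using Nat.strong_induction_on with
  | _ r ih =>
    intro hr hJr t
    obtain ⟨j, hj, hcj, hcase⟩ := pf.desc r hr
    have hjJ : j ∈ J := by
      by_contra h
      exact hcj (hJr.2 j hj h)
    obtain ⟨ε, h1, _, h3⟩ := b.hA.nn_conj b.hR b.hN hj
    have hn := nn_mem_par b.hA hj hjJ
    by_cases hrs : r = D.simple j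
    · subst hrs
      have h4 := h3 _ (b.hR.simple_lt hj) (ε (D.simple j) * t)
      have h5 : ε (D.simple j) * (ε (D.simple j) * t) = t := by
        rcases h1 _ (b.hR.simple_lt hj) with h | h <;> simp [h]
      rw [RootFacts.refl_simple, h5] at h4
      rw [← h4]
      exact mul_mem (mul_mem hn (borel_le_par J (AddFact.pos_le_borel (b.hA.X_mem_pos hr _)))) (inv_mem hn)
    · have hlt : D.reflectRoot j r < r := hcase.resolve_left hrs
      have hpos' := b.hR.refl_pos hj hr hrs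
      have hJ' := pf.inRootSub_refl b.hR hj hjJ hJr
      have hnl := b.hR.neg_lt hpos'.1
      have h4 := h3 (D.neg (D.reflectRoot j r)) hnl (ε (D.neg (D.reflectRoot j r)) * t)
      have h5 : ε (D.neg (D.reflectRoot j r)) * (ε (D.neg (D.reflectRoot j r)) * t) = t := by
        rcases h1 _ hnl with h | h <;> simp [h]
      rw [b.hR.refl_neg hj hpos'.1, b.hR.refl_refl hj hr.1, h5] at h4
      rw [← h4]
      exact mul_mem (mul_mem hn (ih _ hlt hpos' hJ' _)) (inv_mem hn)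

theorem X_mem_par {J : Set ℕ} {r : ℕ} (h : D.IsPosRoot r ∨ D.InRootSub J r) (t : F) :
    b.hA.X r t ∈ D.parabolicSubgroup F J := by
  by_cases hr : D.IsPosRoot r
  · exact borel_le_par J (AddFact.pos_le_borel (b.hA.X_mem_pos hr _))
  · have hJ := h.resolve_left hr
    have hneg := (b.hR.pos_or_neg hJ.1).resolve_left hr
    have := X_neg_mem_par b pf J _ (b.hR.pos_of_neg hneg) (pf.inRootSub_neg b.hR hJ) t
    rwa [b.hR.neg_neg hJ.1] at this

/-- `P_J = ⟨H, X_r : r ∈ Φ⁺ ∪ Φ_J⟩`. -/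
theorem s1047_of (J : Set ℕ) :
    D.parabolicSubgroup F J = D.diagonalSubgroup F ⊔
      Subgroup.closure {g : GL D.Idx F | ∃ (r : ℕ) (t : F), (D.IsPosRoot r ∨ D.InRootSub J r) ∧
        (g : Matrix D.Idx D.Idx F) = D.x F r t} := by
  have hA := b.hA
  apply le_antisymm
  · have hx : ∀ (r : ℕ) (t : F), (D.IsPosRoot r ∨ D.InRootSub J r) → hA.X r t ∈
        Subgroup.closure {g : GL D.Idx F | ∃ (r : ℕ) (t : F), (D.IsPosRoot r ∨ D.InRootSub J r) ∧
        (g : Matrix D.Idx D.Idx F) = D.x F r t} :=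
      fun r t h => Subgroup.subset_closure ⟨r, t, h, hA.coe_X r t⟩
    rw [parabolic_eq hA]
    unfold ChevalleyDatum.borelSubgroup
    refine sup_le (sup_le ?_ le_sup_left) ?_
    · refine le_trans ?_ le_sup_right
      rw [hA.posUnipotent_eq, Subgroup.closure_le]
      rintro g ⟨r, t, hr, rfl⟩
      exact hx r t (Or.inl hr)
    · refine le_trans ?_ le_sup_right
      rw [Subgroup.closure_le]
      rintro g ⟨j, hjJ, hj, rfl⟩
      have h1 := pf.inRootSub_simple b.hR hj hjJ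
      exact mul_mem (mul_mem (hx _ _ (Or.inr h1)) (hx _ _ (Or.inr (pf.inRootSub_neg b.hR h1))))
        (hx _ _ (Or.inr h1))
  · refine sup_le (le_trans AddFact.diag_le_borel (borel_le_par J)) ?_
    rw [Subgroup.closure_le]
    rintro g ⟨r, t, hr, e⟩
    rw [hA.eq_X_iff] at e
    rw [e]
    exact X_mem_par b pf hr t

variable (hCF : CommF D F)
include hCF

theorem conj_eqJ {a c : ℕ} (ha : D.IsPosRoot a) (hc : D.IsPosRoot c) (hac : a ≠ c) (t u : F) :
    ∃ w : List (ℕ × F), (∀ p ∈ w, D.IsPosRoot p.1 ∧ ∀ i < D.rank, cf D c i ≠ 0 → cf D p.1 i ≠ 0) ∧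
      b.hA.X a t * b.hA.X c u * (b.hA.X a t)⁻¹ = b.hA.X c u * b.hA.W w := by
  have hA := b.hA
  refine ⟨D.commWord F a c (-t) u, ?_, ?_⟩
  · intro p hp
    unfold ChevalleyDatum.commWord at hp
    obtain ⟨q, hq, rfl⟩ := List.mem_map.1 hp
    exact pf.ideal a c ha hc hac q hq
  · have e := hCF a c ha.1 hc.1 (Ne.symm hac)
      (fun h => b.hR.not_neg_of_pos hc (h ▸ b.hR.neg_of_pos ha)) (-t) u
    have e' : hA.X c u * hA.X a (-t) = hA.X a (-t) * hA.X c u * hA.W (D.commWord F a c (-t) u) := by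
      apply Units.ext
      simp only [Units.val_mul, AddFact.coe_X, AddFact.coe_W]
      exact e
    calc hA.X a t * hA.X c u * (hA.X a t)⁻¹ = hA.X a t * (hA.X c u * hA.X a (-t)) := by
          rw [hA.X_inv, mul_assoc]
      _ = hA.X a t * (hA.X a (-t) * hA.X c u * hA.W (D.commWord F a c (-t) u)) := by rw [e']
      _ = hA.X c u * hA.W (D.commWord F a c (-t) u) := by rw [← hA.X_inv]; group

theorem conj_genJ {J : Set ℕ} {a c : ℕ} (ha : D.IsPosRoot a) (hc : D.IsPosRoot c)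
    (hJ : ¬ D.InRootSub J c) (t u : F) :
    b.hA.X a t * b.hA.X c u * (b.hA.X a t)⁻¹ ∈ D.unipotentRadical F J := by
  by_cases hac : a = c
  · subst hac
    rw [X_comm_self, mul_inv_cancel_right]
    exact X_mem_UJ b.hA hc hJ u
  · obtain ⟨w, hw, e⟩ := conj_eqJ b pf hCF ha hc hac t u
    rw [e]
    exact mul_mem (X_mem_UJ b.hA hc hJ u) (W_mem_UJ b.hA fun p hp =>
      ⟨(hw p hp).1, ParFacts.not_inRootSub_of_supp hc.1 hJ (hw p hp).2⟩)

/-- `P_J` normalises `U_J`. -/
theorem par_le_normalizer (J : Set ℕ) :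
    D.parabolicSubgroup F J ≤ Subgroup.normalizer (D.unipotentRadical F J : Set (GL D.Idx F)) := by
  have hA := b.hA
  have hU := unipotentRadical_eq hA J
  rw [parabolic_eq hA]
  unfold ChevalleyDatum.borelSubgroup
  refine sup_le (sup_le ?_ ?_) ?_
  · rw [hA.posUnipotent_eq, Subgroup.closure_le]
    rintro g ⟨a, t, ha, rfl⟩
    rw [hU]
    apply mem_normalizer_closure_of
    · rintro x ⟨r, u, hr, hrJ, rfl⟩
      rw [← hU]
      exact conj_genJ b pf hCF ha hr hrJ t u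
    · rintro x ⟨r, u, hr, hrJ, rfl⟩
      rw [← hU]
      have := conj_genJ b pf hCF ha hr hrJ (-t) u
      rwa [← hA.X_inv, inv_inv] at this
  · intro h hh
    obtain ⟨χ, hχ⟩ := hA.diag_isTor b.hT hh
    rw [hU]
    apply mem_normalizer_closure_of
    · rintro x ⟨r, u, hr, hrJ, rfl⟩
      rw [hχ.2.2 r hr.1 u]
      exact Subgroup.subset_closure ⟨r, _, hr, hrJ, rfl⟩
    · rintro x ⟨r, u, hr, hrJ, rfl⟩
      have := (hχ.inv hA).2.2 r hr.1 u
      rw [inv_inv] at this
      rw [this]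
      exact Subgroup.subset_closure ⟨r, _, hr, hrJ, rfl⟩
  · rw [Subgroup.closure_le]
    rintro g ⟨j, hjJ, hj, rfl⟩
    have hne : ∀ r, ¬ D.InRootSub J r → r ≠ D.simple j := by
      rintro r hr rfl
      exact hr (pf.inRootSub_simple b.hR hj hjJ)
    rw [hU]
    apply mem_normalizer_closure_of
    · rintro x ⟨r, u, hr, hrJ, rfl⟩
      obtain ⟨ε, _, _, h3⟩ := hA.nn_conj b.hR b.hN hj
      rw [h3 r hr.1]
      exact Subgroup.subset_closure ⟨_, _, b.hR.refl_pos hj hr (hne r hrJ),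
        pf.not_inRootSub_refl b.hR hj hjJ hr.1 hrJ, rfl⟩
    · rintro x ⟨r, u, hr, hrJ, rfl⟩
      obtain ⟨ε, _, h3⟩ := hA.nn_inv_conj b.hR b.hN hj hr.1
      rw [h3]
      exact Subgroup.subset_closure ⟨_, _, b.hR.refl_pos hj hr (hne r hrJ),
        pf.not_inRootSub_refl b.hR hj hjJ hr.1 hrJ, rfl⟩

omit hCF in
/-- `U_J L_J = P_J`. -/
theorem UJ_sup_levi (J : Set ℕ) :
    D.unipotentRadical F J ⊔ D.leviSubgroup F J = D.parabolicSubgroup F J := by
  have hA := b.hA
  apply le_antisymm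
  · refine sup_le ((UJ_le_pos hA J).trans (AddFact.pos_le_borel.trans (borel_le_par J))) ?_
    rw [levi_eq hA]
    refine sup_le (le_trans AddFact.diag_le_borel (borel_le_par J)) ?_
    rw [Subgroup.closure_le]
    rintro g ⟨r, t, hr, rfl⟩
    exact X_mem_par b pf (Or.inr hr) t
  · rw [s1047_of b pf J]
    refine sup_le (le_trans (le_sup_left : _ ≤ D.leviSubgroup F J) le_sup_right) ?_
    rw [Subgroup.closure_le]
    rintro g ⟨r, t, hr, e⟩
    rw [hA.eq_X_iff] at e
    rw [e]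
    by_cases hJ : D.InRootSub J r
    · exact (le_sup_right : _ ≤ D.unipotentRadical F J ⊔ _) (X_mem_levi hA hJ t)
    · exact (le_sup_left : _ ≤ _ ⊔ D.leviSubgroup F J) (X_mem_UJ hA (hr.resolve_right hJ) hJ t)

end main

end Cfsg.Agent.Lib.Helper22
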