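import Cfsg.Agent.Lib.Helper22.Par3
import Cfsg.Agent.Lib.Helper8.BNPar

/-!
# Parabolic subgroups: overgroups of `B` and the normaliser of `U_J`
-/

set_option autoImplicit false

namespace Cfsg.Agent.Lib.Helper22
open Cfsg.Lie Matrix Cfsg.Agent.Lib.Helper23

variable {D : ChevalleyDatum} {F : Type*} [Field F] {co : ℕ → ℕ → ℤ}

theorem par_le_group (hA : AddFact D F) (J : Set ℕ) : D.parabolicSubgroup F J ≤ D.group F := by
  rw [parabolic_eq hA]
  refine sup_le hA.borel_le_group ?_
  rw [Subgroup.closure_le]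
  rintro g ⟨j, _, _, rfl⟩
  exact hA.nG_mem_group _ _

/-- every subgroup of the Chevalley group containing `B` is generated by `B` and the `n_i` in it. -/
theorem overgroup (b : Bundle D F) {M : Subgroup (GL D.Idx F)} (hBM : D.borelSubgroup F ≤ M)
    (hMG : M ≤ D.group F) : M = D.parabolicSubgroup F {i | b.hA.nn i ∈ M} := by
  have hA := b.hA
  apply le_antisymm
  · obtain ⟨PP, hPB, hPN, hPS⟩ := b.hA.exists_bnPair b.hR b.hN b.hT b.hTri b.hC
    have hB' : PP.B ≤ M.subgroupOf (D.group F) := by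
      rw [hPB]
      intro g hg
      exact hBM hg
    have h1 := Cfsg.Agent.Lib.Helper8.eq_parabolic_of_le (P := PP) hB'
    have h2 : PP.parabolic (PP.S ∩ (M.subgroupOf (D.group F) : Set ↥(D.group F))) ≤
        (D.parabolicSubgroup F {i | b.hA.nn i ∈ M}).subgroupOf (D.group F) := by
      unfold Cfsg.BNPair.parabolic
      refine sup_le ?_ ?_
      · rw [hPB]
        intro g hg
        exact borel_le_par _ hg
      · rw [Subgroup.closure_le]
        rintro s ⟨hs, hsM⟩
        rw [hPS] at hs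
        obtain ⟨i, hi, e⟩ := hs
        rw [hA.eq_nG_iff] at e
        have hsM' : (s : GL D.Idx F) ∈ M := hsM
        show (s : GL D.Idx F) ∈ D.parabolicSubgroup F {i | b.hA.nn i ∈ M}
        rw [e] at hsM' ⊢
        exact nn_mem_par hA hi hsM'
    intro g hg
    have h3 : (⟨g, hMG hg⟩ : ↥(D.group F)) ∈ M.subgroupOf (D.group F) := hg
    rw [h1] at h3
    exact h2 h3
  · rw [parabolic_eq hA]
    refine sup_le hBM ?_
    rw [Subgroup.closure_le]
    rintro g ⟨j, hj, _, rfl⟩
    exact hj

/-- `n_i` does not normalise `U_J` for `i ∉ J`. -/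
theorem mem_of_nn_mem_normalizer (b : Bundle D F) (pf : ParFacts D co) {J : Set ℕ} {i : ℕ} (hi : i < D.rank)
    (h : b.hA.nn i ∈ Subgroup.normalizer (D.unipotentRadical F J : Set (GL D.Idx F))) : i ∈ J := by
  by_contra hiJ
  have hA := b.hA
  have h1 := X_mem_UJ hA (b.hR.simple_pos hi) (pf.not_inRootSub_simple hi hiJ) (1 : F)
  have h2 := (Subgroup.mem_normalizer_iff.1 h _).1 h1
  obtain ⟨ε, e1, _, e3⟩ := hA.nn_conj b.hR b.hN hi
  rw [e3 _ (b.hR.simple_lt hi), RootFacts.refl_simple] at h2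
  refine hA.not_mem_borel_of_neg b.hTri (b.hR.neg_of_pos (b.hR.simple_pos hi)) ?_
    (AddFact.pos_le_borel (UJ_le_pos hA J h2))
  rcases e1 _ (b.hR.simple_lt hi) with h | h <;> simp [h]

/-- `N_G(U_J) = P_J`. -/
theorem s1049_of (b : Bundle D F) (pf : ParFacts D co) (hCF : CommF D F) (J : Set ℕ) :
    Subgroup.normalizer (D.unipotentRadical F J : Set (GL D.Idx F)) ⊓ D.group F =
      D.parabolicSubgroup F J := by
  have hA := b.hA
  apply le_antisymm
  · have h1 := overgroup b (M := Subgroup.normalizer (D.unipotentRadical F J : Set (GL D.Idx F)) ⊓ D.group F)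
      (le_inf ((borel_le_par J).trans (par_le_normalizer b pf hCF J)) hA.borel_le_group) inf_le_right
    rw [h1, parabolic_eq hA, parabolic_eq hA]
    refine sup_le le_sup_left (le_trans ?_ le_sup_right)
    apply Subgroup.closure_mono
    rintro g ⟨j, hj, hjr, rfl⟩
    exact ⟨j, mem_of_nn_mem_normalizer b pf hjr hj.1, hjr, rfl⟩
  · exact le_inf (par_le_normalizer b pf hCF J) (par_le_group hA J)

end Cfsg.Agent.Lib.Helper22
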