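import Cfsg.Agent.Lib.Helper22.Par6
import Cfsg.Agent.Lib.Helper22.UMain
import Cfsg.Agent.Lib.Helper23.AutCount
import Cfsg.Agent.Lib.Helper23.ChevPar

/-!
# Parabolic subgroups: the centraliser of `U_J` in `P_J` lies in `U`
-/

set_option autoImplicit false

namespace Cfsg.Agent.Lib.Helper22
open Cfsg.Lie Matrix Cfsg.Agent.Lib.Helper23

variable {D : ChevalleyDatum} {F : Type*} [Field F] {co : ℕ → ℕ → ℤ}

/-- `C_{P_J}(U_J)` -/
def CJ (D : ChevalleyDatum) (F : Type*) [Field F] (J : Set ℕ) : Subgroup (GL D.Idx F) :=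
  D.parabolicSubgroup F J ⊓ Subgroup.centralizer (D.unipotentRadical F J : Set (GL D.Idx F))

theorem conj_mem_of_normalizer {G : Type*} [Group G] {H : Subgroup G} {g x : G}
    (hg : g ∈ Subgroup.normalizer (H : Set G)) (hx : x ∈ H) : g * x * g⁻¹ ∈ H :=
  (Subgroup.mem_normalizer_iff.1 hg x).1 hx

theorem conj_mem_of_normalizer' {G : Type*} [Group G] {H : Subgroup G} {g x : G}
    (hg : g ∈ Subgroup.normalizer (H : Set G)) (hx : x ∈ H) : g⁻¹ * x * g ∈ H := by
  have := conj_mem_of_normalizer (inv_mem hg) hx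
  rwa [inv_inv] at this

section main
variable (b : Bundle D F) (pf : ParFacts D co) (hCF : CommF D F) (hUC : UComm D F) (hS : USep b.hA)

include b hUC in
theorem borel_le_normalizer_Uge (k : ℕ) :
    D.borelSubgroup F ≤ Subgroup.normalizer (Uge b.hA k : Set (GL D.Idx F)) := by
  refine sup_le (pos_le_normalizer_Uge b.hA hUC k) ?_
  intro h hh
  obtain ⟨χ, hχ⟩ := b.hA.diag_isTor b.hT hh
  apply mem_normalizer_closure_of
  · rintro x ⟨r, u, hr, hk, rfl⟩
    rw [hχ.2.2 r hr.1 u]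
    exact Subgroup.subset_closure ⟨r, _, hr, hk, rfl⟩
  · rintro x ⟨r, u, hr, hk, rfl⟩
    have := (hχ.inv b.hA).2.2 r hr.1 u
    rw [inv_inv] at this
    rw [this]
    exact Subgroup.subset_closure ⟨r, _, hr, hk, rfl⟩

include b pf hCF in
theorem conj_mem_CJ {J : Set ℕ} {g c : GL D.Idx F} (hg : g ∈ D.parabolicSubgroup F J) (hc : c ∈ CJ D F J) :
    g * c * g⁻¹ ∈ CJ D F J := by
  refine Subgroup.mem_inf.2 ⟨mul_mem (mul_mem hg hc.1) (inv_mem hg), ?_⟩
  rw [Subgroup.mem_centralizer_iff]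
  intro u hu
  have h1 := conj_mem_of_normalizer' (par_le_normalizer b pf hCF J hg) hu
  have h2 := (Subgroup.mem_centralizer_iff.1 hc.2) _ h1
  calc u * (g * c * g⁻¹) = g * ((g⁻¹ * u * g) * c) * g⁻¹ := by group
    _ = g * (c * (g⁻¹ * u * g)) * g⁻¹ := by rw [h2]
    _ = g * c * g⁻¹ * u := by group

include b pf hCF in
theorem par_le_normalizer_CJ (J : Set ℕ) :
    D.parabolicSubgroup F J ≤ Subgroup.normalizer (CJ D F J : Set (GL D.Idx F)) := by
  intro g hg
  rw [Subgroup.mem_normalizer_iff]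
  intro c
  refine ⟨fun hc => conj_mem_CJ b pf hCF hg hc, fun hc => ?_⟩
  have := conj_mem_CJ b pf hCF (inv_mem hg) hc
  have e : g⁻¹ * (g * c * g⁻¹) * g⁻¹⁻¹ = c := by group
  rwa [e] at this

include pf hCF hUC hS in
theorem nn_not_mem_CJ_sup {J : Set ℕ} (hJ : ∃ i, i < D.rank ∧ i ∉ J) {j : ℕ} (hj : j < D.rank) :
    b.hA.nn j ∉ CJ D F J ⊔ D.borelSubgroup F := by
  intro hmem
  have hA := b.hA
  have hnorm : D.borelSubgroup F ≤ Subgroup.normalizer (CJ D F J : Set (GL D.Idx F)) :=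
    (borel_le_par J).trans (par_le_normalizer_CJ b pf hCF J)
  have hM := Subgroup.coe_mul_of_right_le_normalizer_left _ _ hnorm
  rw [← SetLike.mem_coe, hM, Set.mem_mul] at hmem
  obtain ⟨c, hc, b', hb', e⟩ := hmem
  have hc' : c ∈ CJ D F J := hc
  have hb'' : b' ∈ D.borelSubgroup F := hb'
  have hjJ : j ∈ J := by
    apply mem_of_nn_mem_normalizer b pf hj
    rw [← e]
    exact par_le_normalizer b pf hCF J (mul_mem hc'.1 (borel_le_par J hb''))
  obtain ⟨i, hi, hiJ⟩ := hJ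
  have hij : i ≠ j := by
    rintro rfl
    exact hiJ hjJ
  obtain ⟨r, hr, hcr, hlt⟩ := pf.conn i hi j hj hij
  have hrJ : ¬ D.InRootSub J r := fun h => hcr (h.2 i hi hiJ)
  have hrs : r ≠ D.simple j := by
    rintro rfl
    exact hrJ (pf.inRootSub_simple b.hR hj hjJ)
  have hr' := b.hR.refl_pos hj hr hrs
  have hr'J := pf.not_inRootSub_refl b.hR hj hjJ hr.1 hrJ
  have hu0 := X_mem_UJ b.hA hr' hr'J (1 : F)
  have hu := conj_mem_of_normalizer (par_le_normalizer b pf hCF J (borel_le_par J hb'')) hu0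
  have hcomm := (Subgroup.mem_centralizer_iff.1 hc'.2) _ hu
  obtain ⟨ε, e1, _, e3⟩ := b.hA.nn_conj b.hR b.hN hj
  have h4 := e3 _ hr'.1 (1 : F)
  rw [b.hR.refl_refl hj hr.1, ← e] at h4
  have h5 : c * b' * b.hA.X (D.reflectRoot j r) 1 * (c * b')⁻¹ =
      b' * b.hA.X (D.reflectRoot j r) 1 * b'⁻¹ := by
    calc c * b' * b.hA.X (D.reflectRoot j r) 1 * (c * b')⁻¹
        = (c * (b' * b.hA.X (D.reflectRoot j r) 1 * b'⁻¹)) * c⁻¹ := by group
      _ = ((b' * b.hA.X (D.reflectRoot j r) 1 * b'⁻¹) * c) * c⁻¹ := by rw [hcomm]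
      _ = _ := by group
  rw [h5] at h4
  have h6 : b' * b.hA.X (D.reflectRoot j r) 1 * b'⁻¹ ∈ Uge b.hA (r + 1) :=
    Uge_anti b.hA hlt (conj_mem_of_normalizer (borel_le_normalizer_Uge b hUC _ hb'')
      (X_mem_Uge b.hA hr' le_rfl 1))
  rw [h4] at h6
  have h7 := hS r hr _ h6
  rcases e1 _ hr'.1 with h | h <;> simp [h] at h7

include pf hCF hUC hS in
theorem CJ_le_borel {J : Set ℕ} (hJ : ∃ i, i < D.rank ∧ i ∉ J) : CJ D F J ≤ D.borelSubgroup F := by
  have hA := b.hA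
  have hov := overgroup b (M := CJ D F J ⊔ D.borelSubgroup F) le_sup_right
    (sup_le (inf_le_left.trans (par_le_group hA J)) hA.borel_le_group)
  have h1 : D.parabolicSubgroup F {i | b.hA.nn i ∈ CJ D F J ⊔ D.borelSubgroup F} ≤ D.borelSubgroup F := by
    rw [parabolic_eq hA]
    refine sup_le le_rfl ?_
    rw [Subgroup.closure_le]
    rintro g ⟨j, hj, hjr, rfl⟩
    exact absurd hj (nn_not_mem_CJ_sup b pf hCF hUC hS hJ hjr)
  exact le_sup_left.trans (hov.le.trans h1)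

include pf hCF hUC hS in
/-- `C_{P_J}(U_J) ≤ U` for a proper parabolic subgroup. -/
theorem CJ_le_pos {J : Set ℕ} (hJ : ∃ i, i < D.rank ∧ i ∉ J) : CJ D F J ≤ D.posUnipotent F := by
  have hA := b.hA
  have hCB := CJ_le_borel b pf hCF hUC hS hJ
  intro c hc
  obtain ⟨u, hu, h, hh, rfl⟩ := (hA.mem_borel_iff b.hT).1 (hCB hc)
  obtain ⟨χ, hχ⟩ := b.hA.diag_isTor b.hT hh
  have h1 : h = 1 := by
    apply b.diag_eq_one_of_simple hh hχ
    intro j hj
    have hp := b.hR.simple_pos hj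
    by_cases hjJ : j ∈ J
    · -- the case `j ∈ J`
      have hpJ := pf.inRootSub_simple b.hR hj hjJ
      have hn := nn_mem_par b.hA hj hjJ
      obtain ⟨u', hu', a, rfl⟩ := (b.hA.mem_pos_iff b.hC hj hp).1 hu
      have hneg := b.hR.neg_of_pos hp
      -- `a = 0`
      have ha : a = 0 := by
        have c1 := hCB (conj_mem_CJ b pf hCF (inv_mem hn) hc)
        rw [inv_inv] at c1
        obtain ⟨ε, e1, e3⟩ := b.hA.nn_inv_conj b.hR b.hN hj hp.1
        have f1 : (b.hA.nn j)⁻¹ * u' * b.hA.nn j ∈ D.borelSubgroup F :=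
          AddFact.pos_le_borel (b.hA.Ui_le_pos j
            (conj_mem_of_normalizer' (b.hA.nn_mem_normalizer_Ui b.hR b.hN hj) hu'))
        have f3 : (b.hA.nn j)⁻¹ * h * b.hA.nn j ∈ D.borelSubgroup F :=
          AddFact.diag_le_borel (b.hA.nn_inv_conj_diag b.hR b.hN hj hh)
        have f2 : b.hA.X (D.neg (D.simple j)) (ε * a) ∈ D.borelSubgroup F := by
          rw [← RootFacts.refl_simple, ← e3 a]
          have e : (b.hA.nn j)⁻¹ * b.hA.X (D.simple j) a * b.hA.nn j =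
              ((b.hA.nn j)⁻¹ * u' * b.hA.nn j)⁻¹ *
                ((b.hA.nn j)⁻¹ * (u' * b.hA.X (D.simple j) a * h) * b.hA.nn j) *
                ((b.hA.nn j)⁻¹ * h * b.hA.nn j)⁻¹ := by group
          rw [e]
          exact mul_mem (mul_mem (inv_mem f1) c1) (inv_mem f3)
        by_contra hne
        refine b.hA.not_mem_borel_of_neg b.hTri hneg ?_ f2
        rcases e1 with h | h <;> simp [h, hne]
      subst ha
      rw [AddFact.X_zero, mul_one] at hc
      -- conjugation by `x_{-p}(1)`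
      have hy : b.hA.X (D.neg (D.simple j)) 1 ∈ D.parabolicSubgroup F J :=
        X_mem_par b pf (Or.inr (pf.inRootSub_neg b.hR hpJ)) 1
      have c2 := hCB (conj_mem_CJ b pf hCF hy hc)
      have g1 : b.hA.X (D.neg (D.simple j)) 1 * u' * (b.hA.X (D.neg (D.simple j)) 1)⁻¹ ∈ D.borelSubgroup F :=
        AddFact.pos_le_borel (b.hA.Ui_le_pos j (conj_mem_of_normalizer
          (b.hA.root_sup_le_normalizer_Ui b.hR b.hN b.hC hj
            (Subgroup.mem_sup_right (b.hA.X_mem_rootSubgroup _ _))) hu'))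
      have g2 : b.hA.X (D.neg (D.simple j)) (1 + χ (D.neg (D.simple j)) * (-1)) ∈ D.borelSubgroup F := by
        rw [b.hA.X_add, ← hχ.2.2 _ hneg.1, ← b.hA.X_inv]
        have e : b.hA.X (D.neg (D.simple j)) 1 * (h * (b.hA.X (D.neg (D.simple j)) 1)⁻¹ * h⁻¹) =
            (b.hA.X (D.neg (D.simple j)) 1 * u' * (b.hA.X (D.neg (D.simple j)) 1)⁻¹)⁻¹ *
              (b.hA.X (D.neg (D.simple j)) 1 * (u' * h) * (b.hA.X (D.neg (D.simple j)) 1)⁻¹) * h⁻¹ := by
          group
        rw [e]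
        exact mul_mem (mul_mem (inv_mem g1) c2) (inv_mem (AddFact.diag_le_borel hh))
      have g3 : 1 + χ (D.neg (D.simple j)) * (-1) = 0 := by
        by_contra hne
        exact b.hA.not_mem_borel_of_neg b.hTri hneg hne g2
      rw [b.isTor_neg hh hχ hp] at g3
      have g4 : (χ (D.simple j))⁻¹ = 1 := by linear_combination -g3
      exact inv_eq_one.1 g4
    · -- the case `j ∉ J`
      have hx := X_mem_UJ b.hA hp (pf.not_inRootSub_simple hj hjJ) (1 : F)
      have hcomm := (Subgroup.mem_centralizer_iff.1 hc.2) _ hx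
      have e1 : u * b.hA.X (D.simple j) (χ (D.simple j) * 1) * u⁻¹ = b.hA.X (D.simple j) 1 := by
        rw [← hχ.2.2 _ hp.1]
        calc u * (h * b.hA.X (D.simple j) 1 * h⁻¹) * u⁻¹
            = ((u * h) * b.hA.X (D.simple j) 1) * (u * h)⁻¹ := by group
          _ = (b.hA.X (D.simple j) 1 * (u * h)) * (u * h)⁻¹ := by rw [hcomm]
          _ = _ := by group
      have e2 := comm_mem_Uge b.hA hUC hp hu (χ (D.simple j) * 1)
      rw [e1, b.hA.X_inv, ← b.hA.X_add] at e2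
      have e3 := hS _ hp _ e2
      linear_combination -e3
  rw [h1, mul_one]
  exact hu

end main

end Cfsg.Agent.Lib.Helper22
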