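import Cfsg.Agent.Lib.Helper22.Par1
import Cfsg.Agent.Lib.Helper22.HCardB2

set_option autoImplicit false
set_option maxRecDepth 1000000
set_option maxHeartbeats 0
set_option synthInstance.maxSize 2000
set_option synthInstance.maxHeartbeats 0

namespace Cfsg.Agent.Lib.Helper22
open Cfsg.Lie Matrix Cfsg.Agent.Lib.Helper23

theorem parReflB2 : ∀ j < tbB2.l, ∀ r < tbB2.n, ∀ i < tbB2.l, i ≠ j →
    coLook tbB2.l tbB2.CO (nTgt tbB2.n ntB2 j r) i = coLook tbB2.l tbB2.CO r i := by decide +kernel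

theorem parSimpB2 : ∀ i < tbB2.l, ∀ j < tbB2.l,
    dc (coLook tbB2.l tbB2.CO (sLook Helper23.siB2 i) j) = if i = j then 1 else 0 := by decide +kernel

theorem parNegB2 : ∀ r < tbB2.n, ∀ j < tbB2.l,
    dc (coLook tbB2.l tbB2.CO (tbB2.n - 1 - r) j) = - dc (coLook tbB2.l tbB2.CO r j) := by decide +kernel

theorem parDescB2 : ∀ r < tbB2.n, tbB2.n ≤ 2 * r → ∃ j < tbB2.l, dc (coLook tbB2.l tbB2.CO r j) ≠ 0 ∧
    (r = sLook Helper23.siB2 j ∨ nTgt tbB2.n ntB2 j r < r) := by decide +kernel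

theorem parConnB2 : ∀ i < tbB2.l, ∀ j < tbB2.l, i ≠ j → ∃ r < tbB2.n, tbB2.n ≤ 2 * r ∧
    dc (coLook tbB2.l tbB2.CO r i) ≠ 0 ∧ r < nTgt tbB2.n ntB2 j r := by decide +kernel

theorem parIdealB2 : ∀ a < tbB2.n, tbB2.n ≤ 2 * a → ∀ b < tbB2.n, tbB2.n ≤ 2 * b → a ≠ b →
    ∀ c ∈ (commTermsOf (ceF tbB2)) a b, ∀ i < tbB2.l,
    dc (coLook tbB2.l tbB2.CO b i) ≠ 0 → dc (coLook tbB2.l tbB2.CO c.1 i) ≠ 0 := by decide +kernel

theorem parSgB2 : ∀ r < tbB2.n, ∀ j < tbB2.l,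
    (dc (coLook tbB2.l roB2 r j)).sign = (dc (coLook tbB2.l tbB2.CO r j)).sign := by decide +kernel

theorem parTabB2 : ParTab tbB2 ntB2 Helper23.siB2 roB2 (commTermsOf (ceF tbB2)) :=
  ⟨parReflB2, parSimpB2, parNegB2, parDescB2, parConnB2, parIdealB2, parSgB2⟩

theorem coChk3B2 : coChk3 chevB2 (fun s j => dc (coLook 2 roB2 s j)) = true := by decide +kernel

end Cfsg.Agent.Lib.Helper22
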