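import Cfsg.Agent.Lib.Helper22.Par1
import Cfsg.Agent.Lib.Helper22.HCardD4

set_option autoImplicit false
set_option maxRecDepth 1000000
set_option maxHeartbeats 0
set_option synthInstance.maxSize 2000
set_option synthInstance.maxHeartbeats 0

namespace Cfsg.Agent.Lib.Helper22
open Cfsg.Lie Matrix Cfsg.Agent.Lib.Helper23

theorem parReflD4 : ∀ j < tbD4.l, ∀ r < tbD4.n, ∀ i < tbD4.l, i ≠ j →
    coLook tbD4.l tbD4.CO (nTgt tbD4.n ntD4 j r) i = coLook tbD4.l tbD4.CO r i := by decide +kernel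

theorem parSimpD4 : ∀ i < tbD4.l, ∀ j < tbD4.l,
    dc (coLook tbD4.l tbD4.CO (sLook Helper23.siD4 i) j) = if i = j then 1 else 0 := by decide +kernel

theorem parNegD4 : ∀ r < tbD4.n, ∀ j < tbD4.l,
    dc (coLook tbD4.l tbD4.CO (tbD4.n - 1 - r) j) = - dc (coLook tbD4.l tbD4.CO r j) := by decide +kernel

theorem parDescD4 : ∀ r < tbD4.n, tbD4.n ≤ 2 * r → ∃ j < tbD4.l, dc (coLook tbD4.l tbD4.CO r j) ≠ 0 ∧
    (r = sLook Helper23.siD4 j ∨ nTgt tbD4.n ntD4 j r < r) := by decide +kernel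

theorem parConnD4 : ∀ i < tbD4.l, ∀ j < tbD4.l, i ≠ j → ∃ r < tbD4.n, tbD4.n ≤ 2 * r ∧
    dc (coLook tbD4.l tbD4.CO r i) ≠ 0 ∧ r < nTgt tbD4.n ntD4 j r := by decide +kernel

theorem parIdealD4 : ∀ a < tbD4.n, tbD4.n ≤ 2 * a → ∀ b < tbD4.n, tbD4.n ≤ 2 * b → a ≠ b →
    ∀ c ∈ (ct1 tbD4) a b, ∀ i < tbD4.l,
    dc (coLook tbD4.l tbD4.CO b i) ≠ 0 → dc (coLook tbD4.l tbD4.CO c.1 i) ≠ 0 := by decide +kernel

theorem parSgD4 : ∀ r < tbD4.n, ∀ j < tbD4.l,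
    (dc (coLook tbD4.l roD4 r j)).sign = (dc (coLook tbD4.l tbD4.CO r j)).sign := by decide +kernel

theorem parTabD4 : ParTab tbD4 ntD4 Helper23.siD4 roD4 (ct1 tbD4) :=
  ⟨parReflD4, parSimpD4, parNegD4, parDescD4, parConnD4, parIdealD4, parSgD4⟩

theorem coChk3D4 : coChk3 chevD4 (fun s j => dc (coLook 4 roD4 s j)) = true := by decide +kernel

end Cfsg.Agent.Lib.Helper22
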