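import Cfsg.Agent.Lib.Helper22.Par1
import Cfsg.Agent.Lib.Helper22.HCardE6

set_option autoImplicit false
set_option maxRecDepth 1000000
set_option maxHeartbeats 0
set_option synthInstance.maxSize 2000
set_option synthInstance.maxHeartbeats 0

namespace Cfsg.Agent.Lib.Helper22
open Cfsg.Lie Matrix Cfsg.Agent.Lib.Helper23

theorem parReflE6 : ∀ j < tbE6.l, ∀ r < tbE6.n, ∀ i < tbE6.l, i ≠ j →
    coLook tbE6.l tbE6.CO (nTgt tbE6.n ntE6 j r) i = coLook tbE6.l tbE6.CO r i := by decide +kernel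

theorem parSimpE6 : ∀ i < tbE6.l, ∀ j < tbE6.l,
    dc (coLook tbE6.l tbE6.CO (sLook Helper23.siE6 i) j) = if i = j then 1 else 0 := by decide +kernel

theorem parNegE6 : ∀ r < tbE6.n, ∀ j < tbE6.l,
    dc (coLook tbE6.l tbE6.CO (tbE6.n - 1 - r) j) = - dc (coLook tbE6.l tbE6.CO r j) := by decide +kernel

theorem parDescE6 : ∀ r < tbE6.n, tbE6.n ≤ 2 * r → ∃ j < tbE6.l, dc (coLook tbE6.l tbE6.CO r j) ≠ 0 ∧
    (r = sLook Helper23.siE6 j ∨ nTgt tbE6.n ntE6 j r < r) := by decide +kernel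

theorem parConnE6 : ∀ i < tbE6.l, ∀ j < tbE6.l, i ≠ j → ∃ r < tbE6.n, tbE6.n ≤ 2 * r ∧
    dc (coLook tbE6.l tbE6.CO r i) ≠ 0 ∧ r < nTgt tbE6.n ntE6 j r := by decide +kernel

theorem parIdealE6 : ∀ a < tbE6.n, tbE6.n ≤ 2 * a → ∀ b < tbE6.n, tbE6.n ≤ 2 * b → a ≠ b →
    ∀ c ∈ (ct1 tbE6) a b, ∀ i < tbE6.l,
    dc (coLook tbE6.l tbE6.CO b i) ≠ 0 → dc (coLook tbE6.l tbE6.CO c.1 i) ≠ 0 := by decide +kernel

theorem parSgE6 : ∀ r < tbE6.n, ∀ j < tbE6.l,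
    (dc (coLook tbE6.l roE6 r j)).sign = (dc (coLook tbE6.l tbE6.CO r j)).sign := by decide +kernel

theorem parTabE6 : ParTab tbE6 ntE6 Helper23.siE6 roE6 (ct1 tbE6) :=
  ⟨parReflE6, parSimpE6, parNegE6, parDescE6, parConnE6, parIdealE6, parSgE6⟩

theorem coChk3E6 : coChk3 chevE6 (fun s j => dc (coLook 6 roE6 s j)) = true := by decide +kernel

end Cfsg.Agent.Lib.Helper22
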