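import Cfsg.Agent.Lib.Helper22.Par1
import Cfsg.Agent.Lib.Helper22.HCardE7

set_option autoImplicit false
set_option maxRecDepth 1000000
set_option maxHeartbeats 0
set_option synthInstance.maxSize 2000
set_option synthInstance.maxHeartbeats 0

namespace Cfsg.Agent.Lib.Helper22
open Cfsg.Lie Matrix Cfsg.Agent.Lib.Helper23

theorem parReflE7 : ∀ j < tbE7.l, ∀ r < tbE7.n, ∀ i < tbE7.l, i ≠ j →
    coLook tbE7.l tbE7.CO (nTgt tbE7.n ntE7 j r) i = coLook tbE7.l tbE7.CO r i := by decide +kernel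

theorem parSimpE7 : ∀ i < tbE7.l, ∀ j < tbE7.l,
    dc (coLook tbE7.l tbE7.CO (sLook Helper23.siE7 i) j) = if i = j then 1 else 0 := by decide +kernel

theorem parNegE7 : ∀ r < tbE7.n, ∀ j < tbE7.l,
    dc (coLook tbE7.l tbE7.CO (tbE7.n - 1 - r) j) = - dc (coLook tbE7.l tbE7.CO r j) := by decide +kernel

theorem parDescE7 : ∀ r < tbE7.n, tbE7.n ≤ 2 * r → ∃ j < tbE7.l, dc (coLook tbE7.l tbE7.CO r j) ≠ 0 ∧
    (r = sLook Helper23.siE7 j ∨ nTgt tbE7.n ntE7 j r < r) := by decide +kernel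

theorem parConnE7 : ∀ i < tbE7.l, ∀ j < tbE7.l, i ≠ j → ∃ r < tbE7.n, tbE7.n ≤ 2 * r ∧
    dc (coLook tbE7.l tbE7.CO r i) ≠ 0 ∧ r < nTgt tbE7.n ntE7 j r := by decide +kernel

theorem parIdealE7 : ∀ a < tbE7.n, tbE7.n ≤ 2 * a → ∀ b < tbE7.n, tbE7.n ≤ 2 * b → a ≠ b →
    ∀ c ∈ (ct1 tbE7) a b, ∀ i < tbE7.l,
    dc (coLook tbE7.l tbE7.CO b i) ≠ 0 → dc (coLook tbE7.l tbE7.CO c.1 i) ≠ 0 := by decide +kernel

theorem parSgE7 : ∀ r < tbE7.n, ∀ j < tbE7.l,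
    (dc (coLook tbE7.l roE7 r j)).sign = (dc (coLook tbE7.l tbE7.CO r j)).sign := by decide +kernel

theorem parTabE7 : ParTab tbE7 ntE7 Helper23.siE7 roE7 (ct1 tbE7) :=
  ⟨parReflE7, parSimpE7, parNegE7, parDescE7, parConnE7, parIdealE7, parSgE7⟩

theorem coChk3E7 : coChk3 chevE7 (fun s j => dc (coLook 7 roE7 s j)) = true := by decide +kernel

end Cfsg.Agent.Lib.Helper22
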