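import Cfsg.Agent.Lib.Helper22.Par1
import Cfsg.Agent.Lib.Helper22.HCardE8

set_option autoImplicit false
set_option maxRecDepth 1000000
set_option maxHeartbeats 0
set_option synthInstance.maxSize 2000
set_option synthInstance.maxHeartbeats 0

namespace Cfsg.Agent.Lib.Helper22
open Cfsg.Lie Matrix Cfsg.Agent.Lib.Helper23

theorem parReflE8 : ∀ j < tbE8.l, ∀ r < tbE8.n, ∀ i < tbE8.l, i ≠ j →
    coLook tbE8.l tbE8.CO (nTgt tbE8.n ntE8 j r) i = coLook tbE8.l tbE8.CO r i := by decide +kernel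

theorem parSimpE8 : ∀ i < tbE8.l, ∀ j < tbE8.l,
    dc (coLook tbE8.l tbE8.CO (sLook Helper23.siE8 i) j) = if i = j then 1 else 0 := by decide +kernel

theorem parNegE8 : ∀ r < tbE8.n, ∀ j < tbE8.l,
    dc (coLook tbE8.l tbE8.CO (tbE8.n - 1 - r) j) = - dc (coLook tbE8.l tbE8.CO r j) := by decide +kernel

theorem parDescE8 : ∀ r < tbE8.n, tbE8.n ≤ 2 * r → ∃ j < tbE8.l, dc (coLook tbE8.l tbE8.CO r j) ≠ 0 ∧
    (r = sLook Helper23.siE8 j ∨ nTgt tbE8.n ntE8 j r < r) := by decide +kernel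

theorem parConnE8 : ∀ i < tbE8.l, ∀ j < tbE8.l, i ≠ j → ∃ r < tbE8.n, tbE8.n ≤ 2 * r ∧
    dc (coLook tbE8.l tbE8.CO r i) ≠ 0 ∧ r < nTgt tbE8.n ntE8 j r := by decide +kernel

theorem parIdealE8 : ∀ a < tbE8.n, tbE8.n ≤ 2 * a → ∀ b < tbE8.n, tbE8.n ≤ 2 * b → a ≠ b →
    ∀ c ∈ (ct1 tbE8) a b, ∀ i < tbE8.l,
    dc (coLook tbE8.l tbE8.CO b i) ≠ 0 → dc (coLook tbE8.l tbE8.CO c.1 i) ≠ 0 := by decide +kernel

theorem parSgE8 : ∀ r < tbE8.n, ∀ j < tbE8.l,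
    (dc (coLook tbE8.l roE8 r j)).sign = (dc (coLook tbE8.l tbE8.CO r j)).sign := by decide +kernel

theorem parTabE8 : ParTab tbE8 ntE8 Helper23.siE8 roE8 (ct1 tbE8) :=
  ⟨parReflE8, parSimpE8, parNegE8, parDescE8, parConnE8, parIdealE8, parSgE8⟩

theorem coChk3E8 : coChk3 chevE8 (fun s j => dc (coLook 8 roE8 s j)) = true := by decide +kernel

end Cfsg.Agent.Lib.Helper22
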