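import Cfsg.Agent.Lib.Helper22.Par1
import Cfsg.Agent.Lib.Helper22.HCardF4

set_option autoImplicit false
set_option maxRecDepth 1000000
set_option maxHeartbeats 0
set_option synthInstance.maxSize 2000
set_option synthInstance.maxHeartbeats 0

namespace Cfsg.Agent.Lib.Helper22
open Cfsg.Lie Matrix Cfsg.Agent.Lib.Helper23

theorem parReflF4 : ∀ j < tbF4.l, ∀ r < tbF4.n, ∀ i < tbF4.l, i ≠ j →
    coLook tbF4.l tbF4.CO (nTgt tbF4.n ntF4 j r) i = coLook tbF4.l tbF4.CO r i := by decide +kernel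

theorem parSimpF4 : ∀ i < tbF4.l, ∀ j < tbF4.l,
    dc (coLook tbF4.l tbF4.CO (sLook Helper23.siF4 i) j) = if i = j then 1 else 0 := by decide +kernel

theorem parNegF4 : ∀ r < tbF4.n, ∀ j < tbF4.l,
    dc (coLook tbF4.l tbF4.CO (tbF4.n - 1 - r) j) = - dc (coLook tbF4.l tbF4.CO r j) := by decide +kernel

theorem parDescF4 : ∀ r < tbF4.n, tbF4.n ≤ 2 * r → ∃ j < tbF4.l, dc (coLook tbF4.l tbF4.CO r j) ≠ 0 ∧
    (r = sLook Helper23.siF4 j ∨ nTgt tbF4.n ntF4 j r < r) := by decide +kernel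

theorem parConnF4 : ∀ i < tbF4.l, ∀ j < tbF4.l, i ≠ j → ∃ r < tbF4.n, tbF4.n ≤ 2 * r ∧
    dc (coLook tbF4.l tbF4.CO r i) ≠ 0 ∧ r < nTgt tbF4.n ntF4 j r := by decide +kernel

theorem parIdealF4 : ∀ a < tbF4.n, tbF4.n ≤ 2 * a → ∀ b < tbF4.n, tbF4.n ≤ 2 * b → a ≠ b →
    ∀ c ∈ (commTermsOf (ceF tbF4)) a b, ∀ i < tbF4.l,
    dc (coLook tbF4.l tbF4.CO b i) ≠ 0 → dc (coLook tbF4.l tbF4.CO c.1 i) ≠ 0 := by decide +kernel

theorem parSgF4 : ∀ r < tbF4.n, ∀ j < tbF4.l,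
    (dc (coLook tbF4.l roF4 r j)).sign = (dc (coLook tbF4.l tbF4.CO r j)).sign := by decide +kernel

theorem parTabF4 : ParTab tbF4 ntF4 Helper23.siF4 roF4 (commTermsOf (ceF tbF4)) :=
  ⟨parReflF4, parSimpF4, parNegF4, parDescF4, parConnF4, parIdealF4, parSgF4⟩

theorem coChk3F4 : coChk3 chevF4 (fun s j => dc (coLook 4 roF4 s j)) = true := by decide +kernel

end Cfsg.Agent.Lib.Helper22
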