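import Cfsg.Agent.Lib.Helper22.Par1
import Cfsg.Agent.Lib.Helper22.HCardG2

set_option autoImplicit false
set_option maxRecDepth 1000000
set_option maxHeartbeats 0
set_option synthInstance.maxSize 2000
set_option synthInstance.maxHeartbeats 0

namespace Cfsg.Agent.Lib.Helper22
open Cfsg.Lie Matrix Cfsg.Agent.Lib.Helper23

theorem parReflG2 : ∀ j < tbG2.l, ∀ r < tbG2.n, ∀ i < tbG2.l, i ≠ j →
    coLook tbG2.l tbG2.CO (nTgt tbG2.n ntG2 j r) i = coLook tbG2.l tbG2.CO r i := by decide +kernel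

theorem parSimpG2 : ∀ i < tbG2.l, ∀ j < tbG2.l,
    dc (coLook tbG2.l tbG2.CO (sLook Helper23.siG2 i) j) = if i = j then 1 else 0 := by decide +kernel

theorem parNegG2 : ∀ r < tbG2.n, ∀ j < tbG2.l,
    dc (coLook tbG2.l tbG2.CO (tbG2.n - 1 - r) j) = - dc (coLook tbG2.l tbG2.CO r j) := by decide +kernel

theorem parDescG2 : ∀ r < tbG2.n, tbG2.n ≤ 2 * r → ∃ j < tbG2.l, dc (coLook tbG2.l tbG2.CO r j) ≠ 0 ∧
    (r = sLook Helper23.siG2 j ∨ nTgt tbG2.n ntG2 j r < r) := by decide +kernel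

theorem parConnG2 : ∀ i < tbG2.l, ∀ j < tbG2.l, i ≠ j → ∃ r < tbG2.n, tbG2.n ≤ 2 * r ∧
    dc (coLook tbG2.l tbG2.CO r i) ≠ 0 ∧ r < nTgt tbG2.n ntG2 j r := by decide +kernel

theorem parIdealG2 : ∀ a < tbG2.n, tbG2.n ≤ 2 * a → ∀ b < tbG2.n, tbG2.n ≤ 2 * b → a ≠ b →
    ∀ c ∈ (commTermsOf (ceF tbG2)) a b, ∀ i < tbG2.l,
    dc (coLook tbG2.l tbG2.CO b i) ≠ 0 → dc (coLook tbG2.l tbG2.CO c.1 i) ≠ 0 := by decide +kernel

theorem parSgG2 : ∀ r < tbG2.n, ∀ j < tbG2.l,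
    (dc (coLook tbG2.l roG2 r j)).sign = (dc (coLook tbG2.l tbG2.CO r j)).sign := by decide +kernel

theorem parTabG2 : ParTab tbG2 ntG2 Helper23.siG2 roG2 (commTermsOf (ceF tbG2)) :=
  ⟨parReflG2, parSimpG2, parNegG2, parDescG2, parConnG2, parIdealG2, parSgG2⟩

theorem coChk3G2 : coChk3 chevG2 (fun s j => dc (coLook 2 roG2 s j)) = true := by decide +kernel

end Cfsg.Agent.Lib.Helper22
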