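import Cfsg.Agent.Lib.Helper22.Par2
import Cfsg.Agent.Lib.Helper22.AutD2
import Cfsg.Agent.Lib.Helper22.ParTabG2
import Cfsg.Agent.Lib.Helper22.ParTabB2
import Cfsg.Agent.Lib.Helper22.ParTabD4
import Cfsg.Agent.Lib.Helper22.ParTabF4
import Cfsg.Agent.Lib.Helper22.ParTabE6
import Cfsg.Agent.Lib.Helper22.ParTabE7
import Cfsg.Agent.Lib.Helper22.ParTabE8

/-!
# Parabolic subgroups: the table facts for all the types
-/

set_option autoImplicit false

namespace Cfsg.Agent.Lib.Helper22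
open Cfsg.Lie Matrix Cfsg.Agent.Lib.Helper23

theorem exists_parFacts {D : ChevalleyDatum}
    (hD : D ∈ [chevG2, chevB2, chevD4, chevF4, chevE6, chevE7, chevE8]) : ∃ co, ParFacts D co := by
  simp only [List.mem_cons, List.not_mem_nil, or_false] at hD
  rcases hD with rfl | rfl | rfl | rfl | rfl | rfl | rfl
  · exact ⟨_, parFacts_of tbG2_valid hszG2 utabG2 (fun _ _ => rfl) usgnG2 ntG2_valid ntG2_facts parTabG2 coChkG2 coChk3G2⟩
  · exact ⟨_, parFacts_of tbB2_valid hszB2 utabB2 (fun _ _ => rfl) usgnB2 ntB2_valid ntB2_facts parTabB2 coChkB2 coChk3B2⟩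
  · exact ⟨_, parFacts_of tbD4_valid hszD4 utabD4 (ct1_eq tbD4 rfl) usgnD4 ntD4_valid ntD4_facts parTabD4 coChkD4 coChk3D4⟩
  · exact ⟨_, parFacts_of tbF4_valid hszF4 utabF4 (fun _ _ => rfl) usgnF4 ntF4_valid ntF4_facts parTabF4 coChkF4 coChk3F4⟩
  · exact ⟨_, parFacts_of tbE6_valid hszE6 utabE6 (ct1_eq tbE6 rfl) usgnE6 ntE6_valid ntE6_facts parTabE6 coChkE6 coChk3E6⟩
  · exact ⟨_, parFacts_of tbE7_valid hszE7 utabE7 (ct1_eq tbE7 rfl) usgnE7 ntE7_valid ntE7_facts parTabE7 coChkE7 coChk3E7⟩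
  · exact ⟨_, parFacts_of tbE8_valid hszE8 utabE8 (ct1_eq tbE8 rfl) usgnE8 ntE8_valid ntE8_facts parTabE8 coChkE8 coChk3E8⟩

end Cfsg.Agent.Lib.Helper22
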