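import Cfsg.Agent.Lib.Helper22.Ree16

set_option autoImplicit false
set_option maxRecDepth 100000

namespace Cfsg.Agent.Lib.Helper22
open Cfsg.Lie Matrix Cfsg.Agent.Lib.Helper23 Cfsg.Agent.Lib.Helper45

theorem mem_stab_mk {G : Type*} [Group G] (H : Subgroup G) (s a : G) :
    s ∈ MulAction.stabilizer G (a : G ⧸ H) ↔ a⁻¹ * s * a ∈ H := by
  rw [MulAction.mem_stabilizer_iff]
  have : s • (a : G ⧸ H) = ((s * a : G) : G ⧸ H) := rfl
  rw [this, eq_comm, QuotientGroup.eq, mul_assoc]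

/-- the joint stabiliser of three points. -/
def stab3 {G Ω : Type*} [Group G] [MulAction G Ω] (x y z : Ω) : Subgroup G :=
  MulAction.stabilizer G x ⊓ MulAction.stabilizer G y ⊓ MulAction.stabilizer G z

theorem card_stab3_smul {G Ω : Type*} [Group G] [MulAction G Ω] (k : G) (x y z : Ω) :
    Nat.card (stab3 (G := G) (k • x) (k • y) (k • z)) = Nat.card (stab3 (G := G) x y z) := by
  have hinj : Function.Injective (MulAut.conj k).toMonoidHom := (MulAut.conj k).injective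
  have : stab3 (G := G) (k • x) (k • y) (k • z) = (stab3 (G := G) x y z).map (MulAut.conj k).toMonoidHom := by
    unfold stab3
    rw [Subgroup.map_inf _ _ _ hinj, Subgroup.map_inf _ _ _ hinj,
      MulAction.stabilizer_smul_eq_stabilizer_map_conj, MulAction.stabilizer_smul_eq_stabilizer_map_conj,
      MulAction.stabilizer_smul_eq_stabilizer_map_conj]
  rw [this]
  exact (Nat.card_congr ((stab3 (G := G) x y z).equivMapOfInjective _ hinj).toEquiv).symm

section sigma
variable {K : Type*} [Field K] [CharP K 3] [Fintype K] {m : ℕ} (hK : Fintype.card K = 3 ^ (2 * m + 1))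
  (b : Bundle chevG2 K) (α : ↥(chevG2.group K) ≃* ↥(chevG2.group K))
  (hα : ∀ r < 12, ∀ t : K,
    (α ⟨b.hA.X r t, b.hA.X_mem_group r t⟩ : GL chevG2.Idx K) = b.hA.X (isoRhoG2 r) (t ^ isoLamG2 r))

omit [Fintype K] [CharP K 3] in
theorem ree_conj_n0_borel {x : GL chevG2.Idx K} :
    (b.hA.nword reeOm)⁻¹ * x * b.hA.nword reeOm ∈ chevG2.borelSubgroup K ↔
      b.hA.nword reeOm * x * (b.hA.nword reeOm)⁻¹ ∈ chevG2.borelSubgroup K := by
  have hsq := AddFact.diag_le_borel (ree_n0_sq b)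
  set n0 := b.hA.nword reeOm
  constructor
  · intro h
    have e : n0 * x * n0⁻¹ = (n0 * n0) * (n0⁻¹ * x * n0) * (n0 * n0)⁻¹ := by group
    rw [e]
    exact mul_mem (mul_mem hsq h) (inv_mem hsq)
  · intro h
    have e : n0⁻¹ * x * n0 = (n0 * n0)⁻¹ * (n0 * x * n0⁻¹) * (n0 * n0) := by group
    rw [e]
    exact mul_mem (mul_mem (inv_mem hsq) h) hsq

include hK hα in
/-- an element of `U¹` whose conjugate under `n₀⁻¹` lies in `B` is trivial. -/
theorem ree_U_conj_trivial {c : GL chevG2.Idx K} (hc : c ∈ chevG2.posUnipotent K ⊓ twistedG2 K (3 ^ m))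
    (h : (b.hA.nword reeOm)⁻¹ * c * b.hA.nword reeOm ∈ chevG2.borelSubgroup K) : c = 1 := by
  obtain ⟨t, u, v, rfl⟩ := (mem_reeU1_iff hK b α hα _).1 hc
  rw [ree_conj_n0_borel b] at h
  set n0 := b.hA.nword reeOm with hn0
  have h1 : n0 * reeU b.hA m t u v * n0⁻¹ ∈ chevG2.negUnipotent K := ree_conj_pos b rfl
  have h3 : n0 * reeU b.hA m t u v * n0⁻¹ ∈ chevG2.borelSubgroup K ⊓ chevG2.negUnipotent K := ⟨h, h1⟩
  rw [b.hTri.BV, Subgroup.mem_bot] at h3
  have : reeU b.hA m t u v = n0⁻¹ * (n0 * reeU b.hA m t u v * n0⁻¹) * n0 := by group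
  rw [this, h3]; group

include hK hα in
/-- the stabiliser of the three points `B`, `n₀B`, `u n₀ B`. -/
theorem ree_stab3_aux {s u : GL chevG2.Idx K} (hs1 : s ∈ twistedG2 K (3 ^ m))
    (hu : u ∈ chevG2.posUnipotent K ⊓ twistedG2 K (3 ^ m)) (hu1 : u ≠ 1)
    (h1 : s ∈ chevG2.borelSubgroup K)
    (h2 : (b.hA.nword reeOm)⁻¹ * s * b.hA.nword reeOm ∈ chevG2.borelSubgroup K)
    (h3 : (u * b.hA.nword reeOm)⁻¹ * s * (u * b.hA.nword reeOm) ∈ chevG2.borelSubgroup K) :
    s = 1 ∨ s = reeH b.hA m (-1) := by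
  have hsH := ree_core_aux hK b α hα hs1 h1 ((ree_conj_n0_borel b).1 h2)
  obtain ⟨y, hy, rfl⟩ := (mem_reeH1_iff hK b α hα _).1 ⟨hsH, hs1⟩
  set n0 := b.hA.nword reeOm with hn0
  set s := reeH b.hA m y with hs
  have hnorm : s * u * s⁻¹ ∈ chevG2.posUnipotent K :=
    (Subgroup.mem_normalizer_iff.1 (b.hA.diag_le_normalizer_pos b.hT hsH) u).1 hu.1
  have hc : u⁻¹ * (s * u * s⁻¹) = 1 := by
    apply ree_U_conj_trivial hK b α hα
      ⟨Subgroup.mul_mem _ (Subgroup.inv_mem _ hu.1) hnorm, Subgroup.mul_mem _ (Subgroup.inv_mem _ hu.2) (Subgroup.mul_mem _ (Subgroup.mul_mem _ hs1 hu.2) (Subgroup.inv_mem _ hs1))⟩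
    have e : n0⁻¹ * (u⁻¹ * (s * u * s⁻¹)) * n0 = ((u * n0)⁻¹ * s * (u * n0)) * (n0⁻¹ * s * n0)⁻¹ := by group
    rw [e]
    exact mul_mem h3 (inv_mem h2)
  have hc' : s * u * s⁻¹ = u := by
    have := congrArg (fun z => u * z) hc
    simpa using this
  obtain ⟨t, u', v, rfl⟩ := (mem_reeU1_iff hK b α hα _).1 hu
  rw [hs, reeH_conj_reeU hK b α hα hy] at hc'
  obtain ⟨e1, e2, e3⟩ := reeU_inj b hc'
  have hy2 : y ^ 2 = 1 := by
    by_cases ht : t = 0
    · by_cases hu0 : u' = 0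
      · have hv : v ≠ 0 := by
          intro hv
          apply hu1
          subst ht hu0 hv
          simp [reeU, reeW, AddFact.W]
        have : y = 1 := by
          apply mul_right_cancel₀ hv
          rw [one_mul, e3]
        rw [this, one_pow]
      · apply ree_chi10 hK hy
        apply mul_right_cancel₀ hu0
        rw [one_mul, e2]
    · have : y = 1 := by
        apply ree_chi6 hK hy
        apply mul_right_cancel₀ ht
        rw [one_mul, e1]
      rw [this, one_pow]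
  have h4 : (y - 1) * (y + 1) = 0 := by linear_combination hy2
  rcases mul_eq_zero.1 h4 with h5 | h5
  · left
    rw [hs, sub_eq_zero.1 h5]
    exact map_one (reeHhom b.hA m)
  · right
    rw [hs, eq_neg_of_add_eq_zero_left h5]

end sigma

end Cfsg.Agent.Lib.Helper22
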