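import Cfsg.Agent.Lib.Helper22.Ree17

set_option autoImplicit false
set_option maxRecDepth 100000

namespace Cfsg.Agent.Lib.Helper22
open Cfsg.Lie Matrix Cfsg.Agent.Lib.Helper23 Cfsg.Agent.Lib.Helper45

section sigma
variable {K : Type*} [Field K] [CharP K 3] [Fintype K] {m : ℕ} (hK : Fintype.card K = 3 ^ (2 * m + 1))
  (b : Bundle chevG2 K) (α : ↥(chevG2.group K) ≃* ↥(chevG2.group K))
  (hα : ∀ r < 12, ∀ t : K,
    (α ⟨b.hA.X r t, b.hA.X_mem_group r t⟩ : GL chevG2.Idx K) = b.hA.X (isoRhoG2 r) (t ^ isoLamG2 r))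

variable (K m) in
/-- `B¹` as a subgroup of `G¹`. -/
abbrev reeB1 : Subgroup ↥(twistedG2 K (3 ^ m)) :=
  (chevG2.borelSubgroup K ⊓ twistedG2 K (3 ^ m)).subgroupOf (twistedG2 K (3 ^ m))

omit [Fintype K] [CharP K 3] in
theorem mem_reeB1 {g : ↥(twistedG2 K (3 ^ m))} : g ∈ reeB1 K m ↔ (g : GL chevG2.Idx K) ∈ chevG2.borelSubgroup K := by
  rw [Subgroup.mem_subgroupOf, Subgroup.mem_inf]
  exact ⟨fun h => h.1, fun h => ⟨h, g.2⟩⟩

/-- `n₀` as an element of `G¹`. -/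
noncomputable def reeN0 (hA : AddFact chevG2 K) (m : ℕ) : ↥(twistedG2 K (3 ^ m)) := ⟨hA.nword reeOm, ree_n0_mem hA m⟩

include hK hα in
theorem ree_stab3_base {u : ↥(twistedG2 K (3 ^ m))} (hu : (u : GL chevG2.Idx K) ∈ chevG2.posUnipotent K)
    (hu1 : u ≠ 1) (s : ↥(twistedG2 K (3 ^ m)))
    (hs : s ∈ stab3 (G := ↥(twistedG2 K (3 ^ m))) ((1 : ↥(twistedG2 K (3 ^ m))) : ↥(twistedG2 K (3 ^ m)) ⧸ reeB1 K m)
      (reeN0 b.hA m : ↥(twistedG2 K (3 ^ m)) ⧸ reeB1 K m)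
      ((u * reeN0 b.hA m : ↥(twistedG2 K (3 ^ m))) : ↥(twistedG2 K (3 ^ m)) ⧸ reeB1 K m)) :
    (s : GL chevG2.Idx K) = 1 ∨ (s : GL chevG2.Idx K) = reeH b.hA m (-1) := by
  unfold stab3 at hs
  rw [Subgroup.mem_inf, Subgroup.mem_inf] at hs
  obtain ⟨⟨h1, h2⟩, h3⟩ := hs
  rw [mem_stab_mk, mem_reeB1] at h1 h2 h3
  refine ree_stab3_aux hK b α hα s.2 ⟨hu, u.2⟩ (fun h => hu1 (Subtype.ext h)) ?_ h2 h3
  simpa using h1

include hK hα in
theorem ree_card_stab3_base {u : ↥(twistedG2 K (3 ^ m))} (hu : (u : GL chevG2.Idx K) ∈ chevG2.posUnipotent K)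
    (hu1 : u ≠ 1) :
    Nat.card (stab3 (G := ↥(twistedG2 K (3 ^ m))) ((1 : ↥(twistedG2 K (3 ^ m))) : ↥(twistedG2 K (3 ^ m)) ⧸ reeB1 K m)
      (reeN0 b.hA m : ↥(twistedG2 K (3 ^ m)) ⧸ reeB1 K m)
      ((u * reeN0 b.hA m : ↥(twistedG2 K (3 ^ m))) : ↥(twistedG2 K (3 ^ m)) ⧸ reeB1 K m)) ≤ 2 := by
  classical
  set S := stab3 (G := ↥(twistedG2 K (3 ^ m))) ((1 : ↥(twistedG2 K (3 ^ m))) : ↥(twistedG2 K (3 ^ m)) ⧸ reeB1 K m)
      (reeN0 b.hA m : ↥(twistedG2 K (3 ^ m)) ⧸ reeB1 K m)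
      ((u * reeN0 b.hA m : ↥(twistedG2 K (3 ^ m))) : ↥(twistedG2 K (3 ^ m)) ⧸ reeB1 K m) with hS
  let f : ↥S → Bool := fun s => decide (((s : ↥(twistedG2 K (3 ^ m))) : GL chevG2.Idx K) = 1)
  have hf : Function.Injective f := by
    intro s s' h
    apply Subtype.ext
    apply Subtype.ext
    have h1 := ree_stab3_base hK b α hα hu hu1 s s.2
    have h2 := ree_stab3_base hK b α hα hu hu1 s' s'.2
    by_cases hs : ((s : ↥(twistedG2 K (3 ^ m))) : GL chevG2.Idx K) = 1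
    · have : f s' = true := by rw [← h]; exact decide_eq_true hs
      rw [hs, of_decide_eq_true this]
    · have : f s' = false := by rw [← h]; exact decide_eq_false hs
      have hs' := of_decide_eq_false this
      rw [h1.resolve_left hs, h2.resolve_left hs']
  have := Nat.card_le_card_of_injective f hf
  simpa using this

include hK hα in
/-- three distinct points can be moved to `B`, `n₀B`, `u n₀ B`. -/
theorem ree_three_points (x y z : ↥(twistedG2 K (3 ^ m)) ⧸ reeB1 K m) (hxy : x ≠ y) (hxz : x ≠ z) (hyz : y ≠ z) :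
    ∃ k u : ↥(twistedG2 K (3 ^ m)), (u : GL chevG2.Idx K) ∈ chevG2.posUnipotent K ∧ u ≠ 1 ∧
      x = k • ((1 : ↥(twistedG2 K (3 ^ m))) : ↥(twistedG2 K (3 ^ m)) ⧸ reeB1 K m) ∧
      y = k • (reeN0 b.hA m : ↥(twistedG2 K (3 ^ m)) ⧸ reeB1 K m) ∧
      z = k • ((u * reeN0 b.hA m : ↥(twistedG2 K (3 ^ m))) : ↥(twistedG2 K (3 ^ m)) ⧸ reeB1 K m) := by
  have hS := sharpBN_of_mem K (D := chevG2) (by simp)
  obtain ⟨g, rfl⟩ := QuotientGroup.mk_surjective x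
  obtain ⟨g2, rfl⟩ := QuotientGroup.mk_surjective y
  obtain ⟨g3, rfl⟩ := QuotientGroup.mk_surjective z
  have h1 : ((g⁻¹ * g2 : ↥(twistedG2 K (3 ^ m))) : GL chevG2.Idx K) ∉ chevG2.borelSubgroup K := by
    intro h
    exact hxy (QuotientGroup.eq.2 (mem_reeB1.2 h))
  obtain ⟨b1, hb1, hb1', u1, hu1, hu1', e1⟩ := (ree_cover hK b α hα (g⁻¹ * g2).2).resolve_left h1
  set k : ↥(twistedG2 K (3 ^ m)) := g * ⟨b1, hb1'⟩ with hk
  have hx : (QuotientGroup.mk g : ↥(twistedG2 K (3 ^ m)) ⧸ reeB1 K m) = QuotientGroup.mk k := by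
    rw [QuotientGroup.eq, mem_reeB1, hk]
    simpa using hb1
  have hy : (QuotientGroup.mk g2 : ↥(twistedG2 K (3 ^ m)) ⧸ reeB1 K m) = QuotientGroup.mk (k * reeN0 b.hA m) := by
    rw [eq_comm, QuotientGroup.eq, mem_reeB1]
    have e : (((k * reeN0 b.hA m)⁻¹ * g2 : ↥(twistedG2 K (3 ^ m))) : GL chevG2.Idx K) =
        (b1 * b.hA.nword reeOm)⁻¹ * ((g⁻¹ * g2 : ↥(twistedG2 K (3 ^ m))) : GL chevG2.Idx K) := by
      simp only [hk, reeN0, Subgroup.coe_mul, InvMemClass.coe_inv]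
      group
    rw [e, e1]
    have e' : (b1 * b.hA.nword reeOm)⁻¹ * (b1 * b.hA.nword reeOm * u1) = u1 := by group
    rw [e']
    exact hS.U_le hu1
  have h2 : ((k⁻¹ * g3 : ↥(twistedG2 K (3 ^ m))) : GL chevG2.Idx K) ∉ chevG2.borelSubgroup K := by
    intro h
    apply hxz
    rw [hx]
    exact QuotientGroup.eq.2 (mem_reeB1.2 h)
  obtain ⟨b3, hb3, hb3', u3, hu3, hu3', e3⟩ := (ree_cover hK b α hα (k⁻¹ * g3).2).resolve_left h2
  obtain ⟨u4, hu4, hu4', h4, hh4, hh4', rfl⟩ := ree_B1_split hK b α hα hb3 hb3'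
  have hz : (QuotientGroup.mk g3 : ↥(twistedG2 K (3 ^ m)) ⧸ reeB1 K m) =
      QuotientGroup.mk (k * (⟨u4, hu4'⟩ * reeN0 b.hA m)) := by
    rw [eq_comm, QuotientGroup.eq, mem_reeB1]
    have e : (((k * (⟨u4, hu4'⟩ * reeN0 b.hA m))⁻¹ * g3 : ↥(twistedG2 K (3 ^ m))) : GL chevG2.Idx K) =
        (u4 * b.hA.nword reeOm)⁻¹ * ((k⁻¹ * g3 : ↥(twistedG2 K (3 ^ m))) : GL chevG2.Idx K) := by
      simp only [reeN0, Subgroup.coe_mul, InvMemClass.coe_inv]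
      group
    rw [e, e3]
    have e' : (u4 * b.hA.nword reeOm)⁻¹ * (u4 * h4 * b.hA.nword reeOm * u3) =
        ((b.hA.nword reeOm)⁻¹ * h4 * b.hA.nword reeOm) * u3 := by group
    rw [e']
    exact mul_mem (hS.H_le_B (hS.H_norm' (b.hA.nword_mem_mono b.hR reeOm_lt) hh4)) (hS.U_le hu3)
  refine ⟨k, ⟨u4, hu4'⟩, hu4, ?_, ?_, hy, hz⟩
  · intro h
    apply hyz
    rw [hy, hz, h, one_mul]
  · rw [hx]
    show _ = QuotientGroup.mk (k * 1)
    rw [mul_one]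

include hK hα in
theorem ree_stab3_le (x y z : ↥(twistedG2 K (3 ^ m)) ⧸ reeB1 K m) (hxy : x ≠ y) (hxz : x ≠ z) (hyz : y ≠ z) :
    Nat.card (stab3 (G := ↥(twistedG2 K (3 ^ m))) x y z) ≤ 2 := by
  obtain ⟨k, u, hu, hu1, rfl, rfl, rfl⟩ := ree_three_points hK b α hα x y z hxy hxz hyz
  rw [card_stab3_smul]
  exact ree_card_stab3_base hK b α hα hu hu1

include hK hα in
theorem ree_stab3_eq : ∃ x y z : ↥(twistedG2 K (3 ^ m)) ⧸ reeB1 K m, x ≠ y ∧ x ≠ z ∧ y ≠ z ∧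
    Nat.card (stab3 (G := ↥(twistedG2 K (3 ^ m))) x y z) = 2 := by
  have hS := sharpBN_of_mem K (D := chevG2) (by simp)
  have hn0N := b.hA.nword_mem_mono (F := K) b.hR reeOm_lt
  set u0 : ↥(twistedG2 K (3 ^ m)) := ⟨reeU b.hA m 0 1 0, reeU_mem' b.hA m 0 1 0⟩ with hu0
  have hu0U : (u0 : GL chevG2.Idx K) ∈ chevG2.posUnipotent K := reeU_mem_pos b.hA _ _ _ _
  have hu01 : u0 ≠ 1 := by
    intro h
    have h1 : reeU b.hA m 0 1 0 = 1 := congrArg Subtype.val h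
    exact one_ne_zero (reeU_ne_one b _ h1).2.1
  have hxy : ((1 : ↥(twistedG2 K (3 ^ m))) : ↥(twistedG2 K (3 ^ m)) ⧸ reeB1 K m) ≠ (reeN0 b.hA m : ↥(twistedG2 K (3 ^ m)) ⧸ reeB1 K m) := by
    intro h
    rw [QuotientGroup.eq, mem_reeB1] at h
    apply ree_n0_not_borel b
    simpa [reeN0] using h
  have hxz : ((1 : ↥(twistedG2 K (3 ^ m))) : ↥(twistedG2 K (3 ^ m)) ⧸ reeB1 K m) ≠
      ((u0 * reeN0 b.hA m : ↥(twistedG2 K (3 ^ m))) : ↥(twistedG2 K (3 ^ m)) ⧸ reeB1 K m) := by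
    intro h
    rw [QuotientGroup.eq, mem_reeB1] at h
    apply ree_n0_not_borel b
    have h' : (u0 : GL chevG2.Idx K) * b.hA.nword reeOm ∈ chevG2.borelSubgroup K := by simpa [reeN0] using h
    have e : b.hA.nword reeOm = (u0 : GL chevG2.Idx K)⁻¹ * ((u0 : GL chevG2.Idx K) * b.hA.nword reeOm) := by group
    rw [e]
    exact mul_mem (inv_mem (hS.U_le hu0U)) h'
  have hyz : (reeN0 b.hA m : ↥(twistedG2 K (3 ^ m)) ⧸ reeB1 K m) ≠
      ((u0 * reeN0 b.hA m : ↥(twistedG2 K (3 ^ m))) : ↥(twistedG2 K (3 ^ m)) ⧸ reeB1 K m) := by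
    intro h
    rw [QuotientGroup.eq, mem_reeB1] at h
    apply hu01
    apply Subtype.ext
    apply ree_U_conj_trivial hK b α hα ⟨hu0U, u0.2⟩
    have e : (((reeN0 b.hA m)⁻¹ * (u0 * reeN0 b.hA m) : ↥(twistedG2 K (3 ^ m))) : GL chevG2.Idx K) =
        (b.hA.nword reeOm)⁻¹ * (u0 : GL chevG2.Idx K) * b.hA.nword reeOm := by
      simp only [reeN0, Subgroup.coe_mul, InvMemClass.coe_inv]
      group
    rwa [e] at h
  refine ⟨_, _, _, hxy, hxz, hyz, le_antisymm (ree_stab3_le hK b α hα _ _ _ hxy hxz hyz) ?_⟩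
  have hm1 : (-1 : K) ≠ 0 := by simp
  set h0 : ↥(twistedG2 K (3 ^ m)) := ⟨reeH b.hA m (-1), reeH_mem hK b.hA hm1⟩ with hh0
  have hh0H : (h0 : GL chevG2.Idx K) ∈ chevG2.diagonalSubgroup K := reeH_mem_diag b.hA hm1
  have hconj : (b.hA.nword reeOm)⁻¹ * (h0 : GL chevG2.Idx K) * b.hA.nword reeOm ∈ chevG2.borelSubgroup K :=
    hS.H_le_B (hS.H_norm' hn0N hh0H)
  have hcomm : (h0 : GL chevG2.Idx K) * u0 * (h0 : GL chevG2.Idx K)⁻¹ = u0 := by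
    have := reeH_conj_reeU hK b α hα hm1 0 1 0
    rw [mul_zero, mul_zero, mul_one, hhChi_10, map_neg, map_one] at this
    have e : (-1 : K) ^ (3 : ℤ) * (-1 : K) ^ (-1 : ℤ) = 1 := by
      rw [← zpow_add₀ hm1]
      norm_num
    rw [e] at this
    exact this
  have hmem : h0 ∈ stab3 (G := ↥(twistedG2 K (3 ^ m))) ((1 : ↥(twistedG2 K (3 ^ m))) : ↥(twistedG2 K (3 ^ m)) ⧸ reeB1 K m)
      (reeN0 b.hA m : ↥(twistedG2 K (3 ^ m)) ⧸ reeB1 K m)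
      ((u0 * reeN0 b.hA m : ↥(twistedG2 K (3 ^ m))) : ↥(twistedG2 K (3 ^ m)) ⧸ reeB1 K m) := by
    unfold stab3
    rw [Subgroup.mem_inf, Subgroup.mem_inf, mem_stab_mk, mem_stab_mk, mem_stab_mk, mem_reeB1, mem_reeB1, mem_reeB1]
    refine ⟨⟨?_, hconj⟩, ?_⟩
    · simpa using hS.H_le_B hh0H
    · have e : (((u0 * reeN0 b.hA m)⁻¹ * h0 * (u0 * reeN0 b.hA m) : ↥(twistedG2 K (3 ^ m))) : GL chevG2.Idx K) =
          (b.hA.nword reeOm)⁻¹ * ((u0 : GL chevG2.Idx K)⁻¹ * ((h0 : GL chevG2.Idx K) * u0 * (h0 : GL chevG2.Idx K)⁻¹)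
            * h0) * b.hA.nword reeOm := by
        simp only [reeN0, Subgroup.coe_mul, InvMemClass.coe_inv]
        group
      rw [e, hcomm, inv_mul_cancel, one_mul]
      exact hconj
  have hne : h0 ≠ 1 := by
    intro h
    have h1 : reeH b.hA m (-1) = reeH b.hA m 1 := by
      have h2 : reeH b.hA m (-1) = 1 := congrArg Subtype.val h
      rw [h2]
      exact (map_one (reeHhom b.hA m)).symm
    have h3 := reeH_inj b.hA hm1 one_ne_zero h1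
    have h4 : (2 : K) = 0 := by linear_combination -h3
    have h5 : (3 : K) = 0 := by exact_mod_cast CharP.cast_eq_zero K 3
    exact one_ne_zero (show (1 : K) = 0 by linear_combination h5 - h4)
  have : Nontrivial ↥(stab3 (G := ↥(twistedG2 K (3 ^ m))) ((1 : ↥(twistedG2 K (3 ^ m))) : ↥(twistedG2 K (3 ^ m)) ⧸ reeB1 K m)
      (reeN0 b.hA m : ↥(twistedG2 K (3 ^ m)) ⧸ reeB1 K m)
      ((u0 * reeN0 b.hA m : ↥(twistedG2 K (3 ^ m))) : ↥(twistedG2 K (3 ^ m)) ⧸ reeB1 K m)) :=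
    ⟨⟨⟨h0, hmem⟩, 1, fun h => hne (congrArg Subtype.val h)⟩⟩
  exact Finite.one_lt_card_iff_nontrivial.2 this

end sigma

end Cfsg.Agent.Lib.Helper22
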