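import Cfsg.Agent.Lib.Helper22.Par2

/-!
# Weakly closed unipotent subgroups: table facts
-/

set_option autoImplicit false

namespace Cfsg.Agent.Lib.Helper22
open Cfsg.Lie Matrix Cfsg.Agent.Lib.Helper23

/-- the Cartan integer from the packed table -/
noncomputable def caZ (T : Tb) (i s : ℕ) : ℤ := - dc (caLook T.n T.CA i s)

/-- `N` is one of `±1`, `±m`. -/
def okN (m : ℕ) (N : ℤ) : Prop := N = 1 ∨ N = -1 ∨ N = m ∨ N = -m

instance (m : ℕ) (N : ℤ) : Decidable (okN m N) := inferInstanceAs (Decidable (_ ∨ _))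

/-- the roots of a list of terms are increasing -/
def srt (l : List (ℕ × ℤ × ℕ × ℕ)) : Prop := l.Pairwise (fun p q => p.1 < q.1)

instance (l : List (ℕ × ℤ × ℕ × ℕ)) : Decidable (srt l) := inferInstanceAs (Decidable (List.Pairwise _ _))

/-- the root `r` occurs with coefficient `±1`. -/
def hasU (l : List (ℕ × ℤ × ℕ × ℕ)) (r : ℕ) : Prop := ∃ e ∈ l, e.1 = r ∧ (e.2.1 = 1 ∨ e.2.1 = -1)

instance (l : List (ℕ × ℤ × ℕ × ℕ)) (r : ℕ) : Decidable (hasU l r) := inferInstanceAs (Decidable (∃ e ∈ l, _))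

/-- table facts (packed form). -/
structure WcTab (T : Tb) (SI : ℕ) (ct : ℕ → ℕ → List (ℕ × ℤ × ℕ × ℕ)) (m : ℕ) : Prop where
  sep : ∀ k < T.n, T.n ≤ 2 * k → ∀ s < T.n, k < s →
    (∃ i < T.l, ∃ j < T.l, okN m (caZ T i k * caZ T j s - caZ T j k * caZ T i s)) ∨
    (∃ i < T.l, ∃ j < T.l, ∃ a : ℕ, a < 7 ∧ ∃ b : ℕ, b < 7 ∧
      ((a : ℤ) - 3) * caZ T i s + ((b : ℤ) - 3) * caZ T j s = 0 ∧
      okN m (((a : ℤ) - 3) * caZ T i k + ((b : ℤ) - 3) * caZ T j k)) ∨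
    (∃ c < T.n, T.n ≤ 2 * c ∧ c ≠ k ∧ (∀ s' < T.n, s ≤ s' → c ≠ s' ∧ ct c s' = []) ∧
      srt (ct c k) ∧ hasU (ct c k) s)
  full : ∀ k < T.n, T.n ≤ 2 * k →
    (∃ i < T.l, caZ T i k = 1 ∨ caZ T i k = -1) ∨
    (∃ i < T.l, ∃ j < T.l, ∃ a : ℕ, a < 7 ∧ ∃ b : ℕ, b < 7 ∧
      (((a : ℤ) - 3) * caZ T i k + ((b : ℤ) - 3) * caZ T j k = 1 ∨
       ((a : ℤ) - 3) * caZ T i k + ((b : ℤ) - 3) * caZ T j k = 2))
  gen : ∀ r < T.n, T.n ≤ 2 * r → (∃ j < T.l, r = sLook SI j) ∨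
    ∃ j < T.l, ∃ a < T.n, T.n ≤ 2 * a ∧ a ≠ sLook SI j ∧ srt (ct a (sLook SI j)) ∧ srt (ct (sLook SI j) a) ∧
      hasU (ct a (sLook SI j)) r ∧ hasU (ct (sLook SI j) a) r ∧
      ∀ i < T.l, dc (coLook T.l T.CO r i) ≠ 0 → dc (coLook T.l T.CO a i) ≠ 0 ∨ i = j

/-- facts on the root system used for the weakly closed subgroups. -/
structure WcFacts (D : ChevalleyDatum) (m : ℕ) : Prop where
  sep : ∀ k s, D.IsPosRoot k → D.IsPosRoot s → k < s →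
    (∃ i < D.rank, ∃ j < D.rank, ∃ a b : ℤ, a * D.cartan i s + b * D.cartan j s = 0 ∧
      okN m (a * D.cartan i k + b * D.cartan j k)) ∨
    (∃ c, D.IsPosRoot c ∧ c ≠ k ∧ (∀ s', D.IsPosRoot s' → s ≤ s' → c ≠ s' ∧ D.commTerms c s' = []) ∧
      srt (D.commTerms c k) ∧ hasU (D.commTerms c k) s)
  full : ∀ k, D.IsPosRoot k → ∃ i < D.rank, ∃ j < D.rank, ∃ a b : ℤ,
    a * D.cartan i k + b * D.cartan j k = 1 ∨ a * D.cartan i k + b * D.cartan j k = 2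
  gen : ∀ r, D.IsPosRoot r → (∃ j < D.rank, r = D.simple j) ∨
    ∃ j < D.rank, ∃ a, D.IsPosRoot a ∧ a ≠ D.simple j ∧ srt (D.commTerms a (D.simple j)) ∧
      srt (D.commTerms (D.simple j) a) ∧ hasU (D.commTerms a (D.simple j)) r ∧
      hasU (D.commTerms (D.simple j) a) r ∧ ∀ i < D.rank, cf D r i ≠ 0 → cf D a i ≠ 0 ∨ i = j
  up : ∀ a b, D.IsPosRoot a → D.IsPosRoot b → a ≠ b → ∀ c ∈ D.commTerms a b,
    D.IsPosRoot c.1 ∧ a < c.1 ∧ b < c.1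

theorem wcFacts_of {D : ChevalleyDatum} {T : Tb} {NT SI LV m : ℕ} {ct : ℕ → ℕ → List (ℕ × ℤ × ℕ × ℕ)}
    (V : T.Valid D) (hsz : D.chain.size = T.n) (hU : UTabOK T LV ct)
    (hct : ∀ r s, ct r s = commTermsOf (ceF T) r s) (hs : ∀ r < T.n, sgnChk T r = true)
    (W : NValid T NT SI D) (P : WcTab T SI ct m) : WcFacts D m := by
  have hn := V.hn
  have hl := V.hl
  have hpos := isPosRoot_iff V hs
  have hcf : ∀ r < T.n, ∀ i < T.l, cf D r i = dc (coLook T.l T.CO r i) := fun r hr i hi => V.co_eq hi hr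
  have hca : ∀ i < T.l, ∀ r < T.n, D.cartan i r = caZ T i r := fun i hi r hr => V.ca_eq hi hr
  have hcm : ∀ a b, D.commTerms a b = ct a b := fun a b => by
    rw [commTerms_eq, chainEntry_eq_ceF V hsz, ← hct]
  have hp : ∀ r, D.IsPosRoot r → r < T.n ∧ T.n ≤ 2 * r := fun r hr => by
    have := (hpos r).1 hr
    rwa [← hn] at this
  have hp' : ∀ r, r < T.n → T.n ≤ 2 * r → D.IsPosRoot r := fun r h1 h2 => (hpos r).2 ⟨hn ▸ h1, hn ▸ h2⟩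
  refine ⟨?_, ?_, ?_, ?_⟩
  · intro k s hk hs' hks
    obtain ⟨k1, k2⟩ := hp k hk
    obtain ⟨s1, s2⟩ := hp s hs'
    rcases P.sep k k1 k2 s s1 hks with ⟨i, hi, j, hj, h⟩ | ⟨i, hi, j, hj, a, _, b, _, h1, h2⟩ |
      ⟨c, c1, c2, hck, h1, h2, h3⟩
    · left
      refine ⟨i, hl ▸ hi, j, hl ▸ hj, caZ T j s, - caZ T i s, ?_, ?_⟩
      · rw [hca i hi s s1, hca j hj s s1]; ring
      · rw [hca i hi k k1, hca j hj k k1]
        have e : caZ T j s * caZ T i k + -caZ T i s * caZ T j k =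
            caZ T i k * caZ T j s - caZ T j k * caZ T i s := by ring
        rw [e]; exact h
    · left
      refine ⟨i, hl ▸ hi, j, hl ▸ hj, (a : ℤ) - 3, (b : ℤ) - 3, ?_, ?_⟩
      · rw [hca i hi s s1, hca j hj s s1]; exact h1
      · rw [hca i hi k k1, hca j hj k k1]; exact h2
    · right
      refine ⟨c, hp' c c1 c2, hck, fun s' hs2 hss => ?_, ?_, ?_⟩
      · rw [hcm]; exact h1 s' (hp s' hs2).1 hss
      · rw [hcm]; exact h2
      · rw [hcm]; exact h3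
  · intro k hk
    obtain ⟨k1, k2⟩ := hp k hk
    rcases P.full k k1 k2 with ⟨i, hi, h⟩ | ⟨i, hi, j, hj, a, _, b, _, h⟩
    · rcases h with h | h
      · exact ⟨i, hl ▸ hi, i, hl ▸ hi, 1, 0, Or.inl (by rw [hca i hi k k1, h]; ring)⟩
      · exact ⟨i, hl ▸ hi, i, hl ▸ hi, -1, 0, Or.inl (by rw [hca i hi k k1, h]; ring)⟩
    · refine ⟨i, hl ▸ hi, j, hl ▸ hj, (a : ℤ) - 3, (b : ℤ) - 3, ?_⟩
      rw [hca i hi k k1, hca j hj k k1]; exact h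
  · intro r hr
    obtain ⟨r1, r2⟩ := hp r hr
    rcases P.gen r r1 r2 with ⟨j, hj, h⟩ | ⟨j, hj, a, a1, a2, h1, h2, h3, h4, h5, h6⟩
    · exact Or.inl ⟨j, hl ▸ hj, by rw [(W.hs j hj).1]; exact h⟩
    · right
      refine ⟨j, hl ▸ hj, a, hp' a a1 a2, ?_, ?_, ?_, ?_, ?_, ?_⟩
      · rw [(W.hs j hj).1]; exact h1
      · rw [(W.hs j hj).1, hcm]; exact h2
      · rw [(W.hs j hj).1, hcm]; exact h3
      · rw [(W.hs j hj).1, hcm]; exact h4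
      · rw [(W.hs j hj).1, hcm]; exact h5
      · intro i hi
        rw [← hl] at hi
        rw [hcf r r1 i hi, hcf a a1 i hi]
        exact h6 i hi
  · intro a b ha hb hab c hc
    rw [hcm] at hc
    obtain ⟨a1, a2⟩ := hp a ha
    obtain ⟨b1, b2⟩ := hp b hb
    have h5 := c1Chk_iff.1 (hU.hc1 a a1 a2) b b1 b2 hab c hc
    exact ⟨hp' _ h5.2.2 (by omega), h5.1, h5.2.1⟩

end Cfsg.Agent.Lib.Helper22
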