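import Cfsg.Agent.Lib.Helper22.Wc1
import Cfsg.Agent.Lib.Helper22.Par7
import Cfsg.Agent.Lib.Helper23.ChevHT

/-!
# Weakly closed unipotent subgroups: separation of the root subgroups by `H`
-/

set_option autoImplicit false

namespace Cfsg.Agent.Lib.Helper22
open Cfsg.Lie Matrix Cfsg.Agent.Lib.Helper23

variable {D : ChevalleyDatum} {F : Type*} [Field F]

section tor
variable (b : Bundle D F) (hS : TorS D F)
include hS

/-- the element `h_i(c^a) h_j(c^e)`. -/
theorem exists_tor {i j : ℕ} (hi : i < D.rank) (hj : j < D.rank) (a e : ℤ) {c : F} (hc : c ≠ 0) :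
    ∃ h ∈ D.diagonalSubgroup F, b.hA.IsTor h (fun s => c ^ (a * D.cartan i s + e * D.cartan j s)) := by
  refine ⟨b.hA.hG (D.simple i) (c ^ a) * b.hA.hG (D.simple j) (c ^ e),
    mul_mem (b.hA.hG_mem_diag (b.hR.simple_lt hi) (zpow_ne_zero _ hc))
      (b.hA.hG_mem_diag (b.hR.simple_lt hj) (zpow_ne_zero _ hc)), ?_⟩
  have h1 := b.hA.hexp_simple hS hi (c ^ a) (zpow_ne_zero _ hc)
  have h2 := b.hA.hexp_simple hS hj (c ^ e) (zpow_ne_zero _ hc)
  refine (h1.mul b.hA h2).congr b.hA ?_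
  funext s
  show (c ^ a) ^ D.cartan i s * (c ^ e) ^ D.cartan j s = _
  rw [← _root_.zpow_mul, ← _root_.zpow_mul, ← zpow_add₀ hc]

/-- some element of `H` centralises `X_s` and not `X_k`. -/
def SepH (b : Bundle D F) (k s : ℕ) : Prop :=
  ∃ h ∈ D.diagonalSubgroup F, ∃ χ : ℕ → F, b.hA.IsTor h χ ∧ χ s = 1 ∧ χ k ≠ 1

theorem sepH_of {m : ℕ} {c : F} (hc0 : c ≠ 0) (hc1 : c ≠ 1) (hcm : c ^ m ≠ 1) {i j k s : ℕ}
    (hi : i < D.rank) (hj : j < D.rank) {a e : ℤ} (h0 : a * D.cartan i s + e * D.cartan j s = 0)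
    (hN : okN m (a * D.cartan i k + e * D.cartan j k)) : SepH b k s := by
  obtain ⟨h, hh, hχ⟩ := exists_tor b hS hi hj a e hc0
  refine ⟨h, hh, _, hχ, ?_, ?_⟩
  · show c ^ (a * D.cartan i s + e * D.cartan j s) = 1
    rw [h0, zpow_zero]
  · show c ^ (a * D.cartan i k + e * D.cartan j k) ≠ 1
    rcases hN with h | h | h | h <;> rw [h]
    · rwa [zpow_one]
    · rw [_root_.zpow_neg, zpow_one]
      intro h2
      exact hc1 (inv_eq_one.1 h2)
    · rwa [zpow_natCast]
    · rw [_root_.zpow_neg, zpow_natCast]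
      intro h2
      exact hcm (inv_eq_one.1 h2)

/-- an `H`-invariant subgroup containing a non-trivial element of `X_k` contains `X_k`. -/
theorem full_of [Finite F] {m : ℕ} (wf : WcFacts D m) {X : Subgroup (GL D.Idx F)}
    (hHX : D.diagonalSubgroup F ≤ Subgroup.normalizer (X : Set (GL D.Idx F))) {k : ℕ} (hk : D.IsPosRoot k)
    {t : F} (ht : t ≠ 0) (hx : b.hA.X k t ∈ X) : ∀ u, b.hA.X k u ∈ X := by
  obtain ⟨i, hi, j, hj, a, e, hN⟩ := wf.full k hk
  have key : ∀ c : F, c ≠ 0 → ∀ v, b.hA.X k v ∈ X →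
      b.hA.X k (c ^ (a * D.cartan i k + e * D.cartan j k) * v) ∈ X := by
    intro c hc v hv
    obtain ⟨h, hh, hχ⟩ := exists_tor b hS hi hj a e hc
    have := conj_mem_of_normalizer (hHX hh) hv
    rwa [hχ.2.2 k hk.1] at this
  rcases hN with hN | hN
  · rw [hN] at key
    intro u
    by_cases hu : u = 0
    · rw [hu, AddFact.X_zero]; exact one_mem _
    · have := key (u / t) (div_ne_zero hu ht) t hx
      rwa [zpow_one, div_mul_cancel₀ _ ht] at this
  · rw [hN] at key
    have hsq : ∀ w : F, b.hA.X k (w ^ 2 * t) ∈ X := by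
      intro w
      by_cases hw : w = 0
      · rw [hw]; simp [one_mem]
      · have := key w hw t hx
        have e2 : w ^ (2 : ℤ) = w ^ 2 := by norm_cast
        rwa [e2] at this
    intro u
    by_cases h2 : ringChar F = 2
    · obtain ⟨w, hw⟩ := FiniteField.isSquare_of_char_two h2 (u / t)
      have := hsq w
      rwa [pow_two, ← hw, div_mul_cancel₀ _ ht] at this
    · have h2' : (2 : F) ≠ 0 := Ring.two_ne_zero h2
      have e3 : u = ((u / t + 1) / 2) ^ 2 * t + -(((u / t - 1) / 2) ^ 2 * t) := by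
        field_simp
        ring
      rw [e3, b.hA.X_add, ← b.hA.X_inv]
      exact mul_mem (hsq _) (inv_mem (hsq _))

end tor

end Cfsg.Agent.Lib.Helper22
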