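import Cfsg.Agent.Lib.Helper22.Wc2

/-!
# Weakly closed unipotent subgroups: subgroups of `U` normalised by `B` are products of root subgroups
-/

set_option autoImplicit false

namespace Cfsg.Agent.Lib.Helper22
open Cfsg.Lie Matrix Cfsg.Agent.Lib.Helper23

variable {D : ChevalleyDatum} {F : Type*} [Field F]

/-- the leading lemma at the root `k`. -/
def LL (b : Bundle D F) (X : Subgroup (GL D.Idx F)) (k : ℕ) : Prop :=
  ∀ t : F, t ≠ 0 → ∀ z ∈ Uge b.hA (k + 1), b.hA.X k t * z ∈ X → ∀ u, b.hA.X k u ∈ X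

section
variable (b : Bundle D F) (hCF : CommF D F)

include hCF in
/-- the conjugation formula with the explicit word. -/
theorem conj_word {a c : ℕ} (ha : D.IsPosRoot a) (hc : D.IsPosRoot c) (hac : a ≠ c) (t u : F) :
    b.hA.X a t * b.hA.X c u * (b.hA.X a t)⁻¹ = b.hA.X c u * b.hA.W (D.commWord F a c (-t) u) := by
  have hA := b.hA
  have e := hCF a c ha.1 hc.1 (Ne.symm hac)
    (fun h => b.hR.not_neg_of_pos hc (h ▸ b.hR.neg_of_pos ha)) (-t) u
  have e' : hA.X c u * hA.X a (-t) = hA.X a (-t) * hA.X c u * hA.W (D.commWord F a c (-t) u) := by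
    apply Units.ext
    simp only [Units.val_mul, AddFact.coe_X, AddFact.coe_W]
    exact e
  calc hA.X a t * hA.X c u * (hA.X a t)⁻¹ = hA.X a t * (hA.X c u * hA.X a (-t)) := by
        rw [hA.X_inv, mul_assoc]
    _ = hA.X a t * (hA.X a (-t) * hA.X c u * hA.W (D.commWord F a c (-t) u)) := by rw [e']
    _ = hA.X c u * hA.W (D.commWord F a c (-t) u) := by rw [← hA.X_inv]; group

variable {X : Subgroup (GL D.Idx F)}

/-- a word with increasing roots lying in `X`: all its letters lie in `X`. -/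
theorem word_mem (k0 : ℕ) (hLL : ∀ k, D.IsPosRoot k → k0 < k → LL b X k) :
    ∀ w : List (ℕ × F), w.Pairwise (fun p q => p.1 < q.1) → (∀ p ∈ w, D.IsPosRoot p.1 ∧ k0 < p.1) →
      b.hA.W w ∈ X → ∀ p ∈ w, p.2 ≠ 0 → ∀ u, b.hA.X p.1 u ∈ X := by
  intro w
  induction w with
  | nil => intro _ _ _ p hp; simp at hp
  | cons q l ih =>
    intro hs hw hW
    rw [List.pairwise_cons] at hs
    rw [W_cons] at hW
    have hl : b.hA.W l ∈ Uge b.hA (q.1 + 1) :=
      W_mem_Uge b.hA fun p hp => ⟨(hw p (by simp [hp])).1, hs.1 p hp⟩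
    have hw' : ∀ p ∈ l, D.IsPosRoot p.1 ∧ k0 < p.1 := fun p hp => hw p (by simp [hp])
    by_cases hq : q.2 = 0
    · rw [hq, AddFact.X_zero, one_mul] at hW
      intro p hp hp0
      rcases List.mem_cons.1 hp with rfl | hp'
      · exact absurd hq hp0
      · exact ih hs.2 hw' hW p hp' hp0
    · have hX := hLL q.1 (hw q (by simp)).1 (hw q (by simp)).2 q.2 hq _ hl hW
      have hW' : b.hA.W l ∈ X := by
        have := mul_mem (inv_mem (hX q.2)) hW
        rwa [inv_mul_cancel_left] at this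
      intro p hp hp0
      rcases List.mem_cons.1 hp with rfl | hp'
      · exact hX
      · exact ih hs.2 hw' hW' p hp' hp0

end

section main
variable (b : Bundle D F) (hCF : CommF D F) (hUC : UComm D F) (hS : TorS D F) {m : ℕ} (wf : WcFacts D m)
  {c₀ : F} (hc0 : c₀ ≠ 0) (hc1 : c₀ ≠ 1) (hcm : c₀ ^ m ≠ 1)
  {X : Subgroup (GL D.Idx F)} (hBX : D.borelSubgroup F ≤ Subgroup.normalizer (X : Set (GL D.Idx F)))

include hCF wf in
/-- the letters of the commutator word. -/
theorem commWord_mem (k0 : ℕ) (hLL : ∀ k, D.IsPosRoot k → k0 < k → LL b X k) {a c : ℕ}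
    (ha : D.IsPosRoot a) (hc : D.IsPosRoot c) (hac : a ≠ c) (hk0 : k0 ≤ a ∨ k0 ≤ c)
    (hsrt : srt (D.commTerms a c)) {t u : F} (ht : t ≠ 0) (hu : u ≠ 0)
    (hW : b.hA.W (D.commWord F a c t u) ∈ X) {s : ℕ} (hs : hasU (D.commTerms a c) s) :
    ∀ v, b.hA.X s v ∈ X := by
  obtain ⟨e, he, rfl, hC⟩ := hs
  have h1 : (D.commWord F a c t u).Pairwise (fun p q => p.1 < q.1) := by
    unfold ChevalleyDatum.commWord
    rw [List.pairwise_map]
    exact hsrt
  have h2 : ∀ p ∈ D.commWord F a c t u, D.IsPosRoot p.1 ∧ k0 < p.1 := by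
    intro p hp
    unfold ChevalleyDatum.commWord at hp
    obtain ⟨q, hq, rfl⟩ := List.mem_map.1 hp
    obtain ⟨g1, g2, g3⟩ := wf.up a c ha hc hac q hq
    refine ⟨g1, ?_⟩
    rcases hk0 with h | h
    · exact lt_of_le_of_lt h g2
    · exact lt_of_le_of_lt h g3
  have h3 : ((e.1, (e.2.1 : F) * (-t) ^ e.2.2.1 * u ^ e.2.2.2) : ℕ × F) ∈ D.commWord F a c t u := by
    unfold ChevalleyDatum.commWord
    exact List.mem_map.2 ⟨e, he, rfl⟩
  refine word_mem b k0 hLL _ h1 h2 hW _ h3 ?_
  show (e.2.1 : F) * (-t) ^ e.2.2.1 * u ^ e.2.2.2 ≠ 0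
  refine mul_ne_zero (mul_ne_zero ?_ (pow_ne_zero _ (neg_ne_zero.2 ht))) (pow_ne_zero _ hu)
  rcases hC with h | h <;> simp [h]

include hCF hUC hS wf hc0 hc1 hcm hBX in
/-- the inner induction: killing the higher terms. -/
theorem inner {k : ℕ} (hk : D.IsPosRoot k) (hLL : ∀ k', D.IsPosRoot k' → k < k' → LL b X k') :
    ∀ d s, D.nroots ≤ s + d → k < s → ∀ t : F, t ≠ 0 → ∀ z ∈ Uge b.hA s, b.hA.X k t * z ∈ X →
      ∃ t' : F, t' ≠ 0 ∧ b.hA.X k t' ∈ X := by
  have hUX : D.posUnipotent F ≤ Subgroup.normalizer (X : Set (GL D.Idx F)) :=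
    AddFact.pos_le_borel.trans hBX
  have hHX : D.diagonalSubgroup F ≤ Subgroup.normalizer (X : Set (GL D.Idx F)) :=
    AddFact.diag_le_borel.trans hBX
  intro d
  induction d with
  | zero =>
    intro s hs _ t ht z hz hg
    rw [Uge_top b.hA (by omega), Subgroup.mem_bot] at hz
    rw [hz, mul_one] at hg
    exact ⟨t, ht, hg⟩
  | succ d ih =>
    intro s hsd hks t ht z hz hg
    by_cases hs : D.IsPosRoot s
    · obtain ⟨u, z', hz', rfl⟩ := Uge_split b.hA hUC hs hz
      have hz'U : z' ∈ D.posUnipotent F := Uge_le_pos b.hA _ hz'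
      rcases wf.sep k s hk hs hks with ⟨i, hi, j, hj, a, e, h0, hN⟩ | ⟨c, hc, hck, hcen, hsrt, hU⟩
      · -- separation by `H`
        obtain ⟨h, hh, χ, hχ, hχs, hχk⟩ := sepH_of b hS hc0 hc1 hcm hi hj h0 hN
        have g1 := mul_mem (conj_mem_of_normalizer (hHX hh) hg) (inv_mem hg)
        have hzz : h * z' * h⁻¹ * z'⁻¹ ∈ Uge b.hA (s + 1) :=
          mul_mem (conj_mem_of_normalizer (borel_le_normalizer_Uge b hUC _ (AddFact.diag_le_borel hh)) hz')
            (inv_mem hz')
        have hz2 : b.hA.X k t * (b.hA.X s u * (h * z' * h⁻¹ * z'⁻¹) * (b.hA.X s u)⁻¹) * (b.hA.X k t)⁻¹ ∈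
            Uge b.hA (s + 1) :=
          conj_mem_Uge b.hA hUC (b.hA.X_mem_pos hk t) (conj_mem_Uge b.hA hUC (b.hA.X_mem_pos hs u) hzz)
        have e1 : h * (b.hA.X k t * (b.hA.X s u * z')) * h⁻¹ * (b.hA.X k t * (b.hA.X s u * z'))⁻¹ =
            (h * b.hA.X k t * h⁻¹) * (h * b.hA.X s u * h⁻¹) * (h * z' * h⁻¹ * z'⁻¹) * (b.hA.X s u)⁻¹ *
              (b.hA.X k t)⁻¹ := by group
        rw [e1, hχ.2.2 k hk.1, hχ.2.2 s hs.1, hχs, one_mul] at g1
        have e2 : b.hA.X k (χ k * t) * b.hA.X s u * (h * z' * h⁻¹ * z'⁻¹) * (b.hA.X s u)⁻¹ * (b.hA.X k t)⁻¹ =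
            b.hA.X k (χ k * t + -t) *
              (b.hA.X k t * (b.hA.X s u * (h * z' * h⁻¹ * z'⁻¹) * (b.hA.X s u)⁻¹) * (b.hA.X k t)⁻¹) := by
          rw [b.hA.X_add, ← b.hA.X_inv]; group
        rw [e2] at g1
        refine ih (s + 1) (by omega) (by omega) _ ?_ _ hz2 g1
        have : χ k * t + -t = (χ k - 1) * t := by ring
        rw [this]
        exact mul_ne_zero (sub_ne_zero.2 hχk) ht
      · -- the alternative: `X_s ≤ X`
        have hcz : ∀ y ∈ Uge b.hA s, b.hA.X c 1 * y * (b.hA.X c 1)⁻¹ = y := by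
          intro y hy
          have hle : Uge b.hA s ≤ Subgroup.centralizer {b.hA.X c 1} := by
            unfold Uge
            rw [Subgroup.closure_le]
            rintro _ ⟨s', v, hs', hss, rfl⟩
            obtain ⟨hne, hnil⟩ := hcen s' hs' hss
            have := conj_word b hCF hc hs' hne 1 v
            unfold ChevalleyDatum.commWord at this
            rw [hnil] at this
            simp only [List.map_nil] at this
            have h5 : b.hA.W ([] : List (ℕ × F)) = 1 := rfl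
            rw [h5, mul_one] at this
            rw [SetLike.mem_coe, Subgroup.mem_centralizer_singleton_iff]
            rw [mul_inv_eq_iff_eq_mul] at this
            exact this.symm
          have := Subgroup.mem_centralizer_singleton_iff.1 (hle hy)
          rw [mul_inv_eq_iff_eq_mul]
          exact this.symm
        have g1 := mul_mem (conj_mem_of_normalizer (hUX (b.hA.X_mem_pos hc 1)) hg) (inv_mem hg)
        have e1 : b.hA.X c 1 * (b.hA.X k t * (b.hA.X s u * z')) * (b.hA.X c 1)⁻¹ *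
            (b.hA.X k t * (b.hA.X s u * z'))⁻¹ =
            (b.hA.X c 1 * b.hA.X k t * (b.hA.X c 1)⁻¹) *
              (b.hA.X c 1 * (b.hA.X s u * z') * (b.hA.X c 1)⁻¹) * (b.hA.X s u * z')⁻¹ * (b.hA.X k t)⁻¹ := by
          group
        rw [e1, hcz _ hz, conj_word b hCF hc hk hck, mul_inv_cancel_right] at g1
        have g2 := conj_mem_of_normalizer' (hUX (b.hA.X_mem_pos hk t)) g1
        have e2 : (b.hA.X k t)⁻¹ * (b.hA.X k t * b.hA.W (D.commWord F c k (-1) t) * (b.hA.X k t)⁻¹) *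
            b.hA.X k t = b.hA.W (D.commWord F c k (-1) t) := by group
        rw [e2] at g2
        have hXs := commWord_mem b hCF wf k hLL hc hk hck (Or.inr le_rfl) hsrt
          (neg_ne_zero.2 one_ne_zero) ht g2 hU
        have g3 : b.hA.X k t * z' ∈ X := by
          have h6 := conj_mem_of_normalizer' (hUX hz'U) (inv_mem (hXs u))
          have := mul_mem hg h6
          have e3 : b.hA.X k t * (b.hA.X s u * z') * (z'⁻¹ * (b.hA.X s u)⁻¹ * z') = b.hA.X k t * z' := by
            group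
          rwa [e3] at this
        exact ih (s + 1) (by omega) (by omega) t ht z' hz' g3
    · rw [← Uge_succ_of_not_pos b.hA hs] at hz
      exact ih (s + 1) (by omega) (by omega) t ht z hz hg

include hCF hUC hS wf hc0 hc1 hcm hBX in
/-- the leading lemma. -/
theorem ll_all [Finite F] : ∀ n k, D.IsPosRoot k → D.nroots ≤ k + n → LL b X k := by
  have hHX : D.diagonalSubgroup F ≤ Subgroup.normalizer (X : Set (GL D.Idx F)) :=
    AddFact.diag_le_borel.trans hBX
  intro n
  induction n with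
  | zero =>
    intro k hk h
    have := hk.1
    omega
  | succ n ih =>
    intro k hk h t ht z hz hg
    obtain ⟨t', ht', hx⟩ := inner b hCF hUC hS wf hc0 hc1 hcm hBX hk
      (fun k' hk' hlt => ih k' hk' (by omega)) D.nroots (k + 1) (by omega) (by omega) t ht z hz hg
    exact full_of b hS wf hHX hk ht' hx

include hCF hUC hS wf hc0 hc1 hcm hBX in
theorem ll [Finite F] {k : ℕ} (hk : D.IsPosRoot k) : LL b X k :=
  ll_all b hCF hUC hS wf hc0 hc1 hcm hBX D.nroots k hk (by omega)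

/-- the subgroup generated by the root subgroups contained in `X`. -/
def XPsi (b : Bundle D F) (X : Subgroup (GL D.Idx F)) : Subgroup (GL D.Idx F) :=
  Subgroup.closure {g | ∃ (r : ℕ) (t : F), D.IsPosRoot r ∧ (∀ u, b.hA.X r u ∈ X) ∧ g = b.hA.X r t}

include hCF hUC hS wf hc0 hc1 hcm hBX in
theorem inf_Uge_le [Finite F] : ∀ n k, D.nroots ≤ k + n → X ⊓ Uge b.hA k ≤ XPsi b X := by
  intro n
  induction n with
  | zero =>
    intro k h
    rw [Uge_top b.hA (by omega), inf_bot_eq]
    exact bot_le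
  | succ n ih =>
    intro k h g hg
    by_cases hk : D.IsPosRoot k
    · obtain ⟨t, g', hg', rfl⟩ := Uge_split b.hA hUC hk hg.2
      by_cases ht : t = 0
      · rw [ht, AddFact.X_zero, one_mul] at hg ⊢
        exact ih (k + 1) (by omega) ⟨hg.1, hg'⟩
      · have hX := ll b hCF hUC hS wf hc0 hc1 hcm hBX hk t ht g' hg' hg.1
        have h1 : g' ∈ X := by
          have := mul_mem (inv_mem (hX t)) hg.1
          rwa [inv_mul_cancel_left] at this
        exact mul_mem (Subgroup.subset_closure ⟨k, t, hk, hX, rfl⟩) (ih (k + 1) (by omega) ⟨h1, hg'⟩)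
    · have h2 := hg.2
      rw [← Uge_succ_of_not_pos b.hA hk] at h2
      exact ih (k + 1) (by omega) ⟨hg.1, h2⟩

include hCF hUC hS wf hc0 hc1 hcm hBX in
/-- a subgroup of `U` normalised by `B` is generated by the root subgroups in it. -/
theorem eq_XPsi [Finite F] (hXU : X ≤ D.posUnipotent F) : X = XPsi b X := by
  apply le_antisymm
  · intro g hg
    refine inf_Uge_le b hCF hUC hS wf hc0 hc1 hcm hBX D.nroots 0 (by omega) ⟨hg, ?_⟩
    rw [SetLike.mem_coe, Uge_zero]
    exact hXU hg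
  · unfold XPsi
    rw [Subgroup.closure_le]
    rintro g ⟨r, t, _, hX, rfl⟩
    exact hX t

end main

end Cfsg.Agent.Lib.Helper22
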