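import Cfsg.Agent.Lib.Helper22.Wc3

/-!
# Weakly closed unipotent subgroups are unipotent radicals
-/

set_option autoImplicit false

namespace Cfsg.Agent.Lib.Helper22
open Cfsg.Lie Matrix Cfsg.Agent.Lib.Helper23

variable {D : ChevalleyDatum} {F : Type*} [Field F] {co : ℕ → ℕ → ℤ}

theorem mem_normalizer_of_map_eq {G : Type*} [Group G] {X : Subgroup G} {g : G}
    (h : X.map (MulAut.conj g).toMonoidHom = X) : g ∈ Subgroup.normalizer (X : Set G) := by
  rw [Subgroup.mem_normalizer_iff]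
  intro x
  constructor
  · intro hx
    rw [← h]
    exact ⟨x, hx, rfl⟩
  · intro hx
    rw [← h] at hx
    obtain ⟨y, hy, e⟩ := hx
    have e1 : g * y * g⁻¹ = g * x * g⁻¹ := e
    have e2 : y = x := by simpa using e1
    rwa [← e2]

theorem s2244_of [Finite F] (b : Bundle D F) (pf : ParFacts D co) (hCF : CommF D F) (hUC : UComm D F)
    (hS : TorS D F) {m : ℕ} (wf : WcFacts D m) {c₀ : F} (hc0 : c₀ ≠ 0) (hc1 : c₀ ≠ 1) (hcm : c₀ ^ m ≠ 1)
    (X : Subgroup (GL D.Idx F)) (hXU : X ≤ D.posUnipotent F)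
    (hwc : ∀ g ∈ D.group F, X.map (MulAut.conj g).toMonoidHom ≤ D.posUnipotent F →
      X.map (MulAut.conj g).toMonoidHom = X) :
    ∃ J : Set ℕ, (∀ j ∈ J, j < D.rank) ∧ X = D.unipotentRadical F J := by
  have hA := b.hA
  -- `B` normalises `X`
  have hBX : D.borelSubgroup F ≤ Subgroup.normalizer (X : Set (GL D.Idx F)) := by
    intro g hg
    apply mem_normalizer_of_map_eq
    apply hwc g (hA.borel_le_group hg)
    rintro _ ⟨x, hx, rfl⟩
    exact conj_mem_of_normalizer (hA.borel_le_normalizer_pos b.hT hg) (hXU hx)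
  have hUX : D.posUnipotent F ≤ Subgroup.normalizer (X : Set (GL D.Idx F)) :=
    AddFact.pos_le_borel.trans hBX
  have hX := eq_XPsi b hCF hUC hS wf hc0 hc1 hcm hBX hXU
  have hLL : ∀ k, D.IsPosRoot k → 0 < k → LL b X k :=
    fun k hk _ => ll b hCF hUC hS wf hc0 hc1 hcm hBX hk
  refine ⟨{j | j < D.rank ∧ ¬ ∀ u, b.hA.X (D.simple j) u ∈ X}, fun j hj => hj.1, ?_⟩
  set J : Set ℕ := {j | j < D.rank ∧ ¬ ∀ u, b.hA.X (D.simple j) u ∈ X} with hJ
  -- `n_j` normalises `X` for `j ∈ J`
  have hn : ∀ j ∈ J, b.hA.nn j ∈ Subgroup.normalizer (X : Set (GL D.Idx F)) := by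
    intro j hj
    apply mem_normalizer_of_map_eq
    apply hwc _ (b.hA.nG_mem_group _ _)
    rw [Subgroup.map_le_iff_le_comap]
    refine hX.le.trans ?_
    unfold XPsi
    rw [Subgroup.closure_le]
    rintro _ ⟨r, t, hr, hrX, rfl⟩
    have hne : r ≠ D.simple j := by
      rintro rfl
      exact hj.2 hrX
    obtain ⟨ε, _, _, e3⟩ := b.hA.nn_conj b.hR b.hN hj.1
    show b.hA.nn j * b.hA.X r t * (b.hA.nn j)⁻¹ ∈ D.posUnipotent F
    rw [e3 r hr.1]
    exact b.hA.X_mem_pos (b.hR.refl_pos hj.1 hr hne) _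
  have hrefl : ∀ j ∈ J, ∀ r, D.IsPosRoot r → (∀ u, b.hA.X r u ∈ X) →
      ∀ u, b.hA.X (D.reflectRoot j r) u ∈ X := by
    intro j hj r hr hrX u
    obtain ⟨ε, e1, _, e3⟩ := b.hA.nn_conj b.hR b.hN hj.1
    have h4 := e3 r hr.1 (ε r * u)
    have h5 : ε r * (ε r * u) = u := by
      rcases e1 r hr.1 with h | h <;> simp [h]
    rw [h5] at h4
    rw [← h4]
    exact conj_mem_of_normalizer (hn j hj) (hrX _)
  -- no root of `Φ_J` occurs
  have hf : ∀ r, D.IsPosRoot r → D.InRootSub J r → ¬ ∀ u, b.hA.X r u ∈ X := by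
    intro r
    induction r using Nat.strong_induction_on with
    | _ r ih =>
      intro hr hrJ hrX
      obtain ⟨j, hj, hcj, hcase⟩ := pf.desc r hr
      have hjJ : j ∈ J := by
        by_contra h
        exact hcj (hrJ.2 j hj h)
      by_cases hrs : r = D.simple j
      · subst hrs
        exact hjJ.2 hrX
      · exact ih _ (hcase.resolve_left hrs) (b.hR.refl_pos hj hr hrs) (pf.inRootSub_refl b.hR hj hjJ hrJ)
          (hrefl j hjJ r hr hrX)
  -- the commutator word lies in `X`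
  have hcw : ∀ a c, D.IsPosRoot a → D.IsPosRoot c → a ≠ c → (∀ u, b.hA.X a u ∈ X) →
      b.hA.W (D.commWord F a c (-1) 1) ∈ X := by
    intro a c ha hc hac haX
    have e := conj_word b hCF ha hc hac 1 1
    have e2 : b.hA.W (D.commWord F a c (-1) 1) =
        ((b.hA.X c 1)⁻¹ * b.hA.X a 1 * b.hA.X c 1) * (b.hA.X a 1)⁻¹ := by
      have : b.hA.W (D.commWord F a c (-1) 1) =
          (b.hA.X c 1)⁻¹ * (b.hA.X a 1 * b.hA.X c 1 * (b.hA.X a 1)⁻¹) := by
        rw [e]; group
      rw [this]; group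
    rw [e2]
    exact mul_mem (conj_mem_of_normalizer' (hUX (b.hA.X_mem_pos hc 1)) (haX 1)) (inv_mem (haX 1))
  -- all the roots outside `Φ_J` occur
  have hg : ∀ r, D.IsPosRoot r → ¬ D.InRootSub J r → ∀ u, b.hA.X r u ∈ X := by
    intro r
    induction r using Nat.strong_induction_on with
    | _ r ih =>
      intro hr hrJ
      have hex : ∃ i < D.rank, i ∉ J ∧ cf D r i ≠ 0 := by
        by_contra hno
        push Not at hno
        exact hrJ ⟨hr.1, hno⟩
      obtain ⟨i, hi, hiJ, hci⟩ := hex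
      have hiX : ∀ u, b.hA.X (D.simple i) u ∈ X := by
        by_contra h
        exact hiJ ⟨hi, h⟩
      rcases wf.gen r hr with ⟨j, hj, rfl⟩ | ⟨j, hj, a, ha, haj, s1, s2, u1, u2, hsupp⟩
      · have : j = i := by
          by_contra hne
          apply hci
          rw [pf.simp j hj i hi, if_neg hne]
        rw [this]
        exact hiX
      · have hp := b.hR.simple_pos hj
        rcases hsupp i hi hci with h | h
        · have har : a < r := by
            obtain ⟨e, he, rfl, _⟩ := u1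
            exact (wf.up a _ ha hp haj e he).2.1
          have haJ : ¬ D.InRootSub J a := fun h' => h (h'.2 i hi hiJ)
          exact commWord_mem b hCF wf 0 hLL ha hp haj (Or.inl (Nat.zero_le _)) s1
            (neg_ne_zero.2 one_ne_zero) one_ne_zero (hcw a _ ha hp haj (ih a har ha haJ)) u1
        · subst h
          exact commWord_mem b hCF wf 0 hLL hp ha (Ne.symm haj) (Or.inl (Nat.zero_le _)) s2
            (neg_ne_zero.2 one_ne_zero) one_ne_zero (hcw _ a hp ha (Ne.symm haj) hiX) u2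
  -- conclusion
  rw [unipotentRadical_eq b.hA]
  apply le_antisymm
  · refine hX.le.trans ?_
    unfold XPsi
    apply Subgroup.closure_mono
    rintro _ ⟨r, t, hr, hrX, rfl⟩
    exact ⟨r, t, hr, fun h => hf r hr h hrX, rfl⟩
  · rw [Subgroup.closure_le]
    rintro _ ⟨r, t, hr, hrJ, rfl⟩
    exact hg r hr hrJ t

end Cfsg.Agent.Lib.Helper22
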