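import Cfsg.Agent.Lib.Helper22.Wc1
import Cfsg.Agent.Lib.Helper23.NTabB2

set_option autoImplicit false
set_option maxRecDepth 1000000
set_option maxHeartbeats 0
set_option synthInstance.maxSize 4000
set_option synthInstance.maxHeartbeats 0

namespace Cfsg.Agent.Lib.Helper22
open Cfsg.Lie Matrix Cfsg.Agent.Lib.Helper23

theorem wcSepB2 : ∀ k < tbB2.n, tbB2.n ≤ 2 * k → ∀ s < tbB2.n, k < s →
    (∃ i < tbB2.l, ∃ j < tbB2.l, okN 2 (caZ tbB2 i k * caZ tbB2 j s - caZ tbB2 j k * caZ tbB2 i s)) ∨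
    (∃ i < tbB2.l, ∃ j < tbB2.l, ∃ a : ℕ, a < 7 ∧ ∃ b : ℕ, b < 7 ∧
      ((a : ℤ) - 3) * caZ tbB2 i s + ((b : ℤ) - 3) * caZ tbB2 j s = 0 ∧
      okN 2 (((a : ℤ) - 3) * caZ tbB2 i k + ((b : ℤ) - 3) * caZ tbB2 j k)) ∨
    (∃ c < tbB2.n, tbB2.n ≤ 2 * c ∧ c ≠ k ∧ (∀ s' < tbB2.n, s ≤ s' → c ≠ s' ∧ (commTermsOf (ceF tbB2)) c s' = []) ∧
      srt ((commTermsOf (ceF tbB2)) c k) ∧ hasU ((commTermsOf (ceF tbB2)) c k) s) := by decide +kernel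

theorem wcFullB2 : ∀ k < tbB2.n, tbB2.n ≤ 2 * k →
    (∃ i < tbB2.l, caZ tbB2 i k = 1 ∨ caZ tbB2 i k = -1) ∨
    (∃ i < tbB2.l, ∃ j < tbB2.l, ∃ a : ℕ, a < 7 ∧ ∃ b : ℕ, b < 7 ∧
      (((a : ℤ) - 3) * caZ tbB2 i k + ((b : ℤ) - 3) * caZ tbB2 j k = 1 ∨
       ((a : ℤ) - 3) * caZ tbB2 i k + ((b : ℤ) - 3) * caZ tbB2 j k = 2)) := by decide +kernel

theorem wcGenB2 : ∀ r < tbB2.n, tbB2.n ≤ 2 * r → (∃ j < tbB2.l, r = sLook Helper23.siB2 j) ∨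
    ∃ j < tbB2.l, ∃ a < tbB2.n, tbB2.n ≤ 2 * a ∧ a ≠ sLook Helper23.siB2 j ∧ srt ((commTermsOf (ceF tbB2)) a (sLook Helper23.siB2 j)) ∧
      srt ((commTermsOf (ceF tbB2)) (sLook Helper23.siB2 j) a) ∧
      hasU ((commTermsOf (ceF tbB2)) a (sLook Helper23.siB2 j)) r ∧ hasU ((commTermsOf (ceF tbB2)) (sLook Helper23.siB2 j) a) r ∧
      ∀ i < tbB2.l, dc (coLook tbB2.l tbB2.CO r i) ≠ 0 → dc (coLook tbB2.l tbB2.CO a i) ≠ 0 ∨ i = j := by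
  decide +kernel

theorem wcTabB2 : WcTab tbB2 Helper23.siB2 (commTermsOf (ceF tbB2)) 2 := ⟨wcSepB2, wcFullB2, wcGenB2⟩

end Cfsg.Agent.Lib.Helper22
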