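import Cfsg.Agent.Lib.Helper22.Wc1
import Cfsg.Agent.Lib.Helper23.NTabD4

set_option autoImplicit false
set_option maxRecDepth 1000000
set_option maxHeartbeats 0
set_option synthInstance.maxSize 4000
set_option synthInstance.maxHeartbeats 0

namespace Cfsg.Agent.Lib.Helper22
open Cfsg.Lie Matrix Cfsg.Agent.Lib.Helper23

theorem wcSepD4 : ∀ k < tbD4.n, tbD4.n ≤ 2 * k → ∀ s < tbD4.n, k < s →
    (∃ i < tbD4.l, ∃ j < tbD4.l, okN 2 (caZ tbD4 i k * caZ tbD4 j s - caZ tbD4 j k * caZ tbD4 i s)) ∨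
    (∃ i < tbD4.l, ∃ j < tbD4.l, ∃ a : ℕ, a < 7 ∧ ∃ b : ℕ, b < 7 ∧
      ((a : ℤ) - 3) * caZ tbD4 i s + ((b : ℤ) - 3) * caZ tbD4 j s = 0 ∧
      okN 2 (((a : ℤ) - 3) * caZ tbD4 i k + ((b : ℤ) - 3) * caZ tbD4 j k)) ∨
    (∃ c < tbD4.n, tbD4.n ≤ 2 * c ∧ c ≠ k ∧ (∀ s' < tbD4.n, s ≤ s' → c ≠ s' ∧ (ct1 tbD4) c s' = []) ∧
      srt ((ct1 tbD4) c k) ∧ hasU ((ct1 tbD4) c k) s) := by decide +kernel

theorem wcFullD4 : ∀ k < tbD4.n, tbD4.n ≤ 2 * k →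
    (∃ i < tbD4.l, caZ tbD4 i k = 1 ∨ caZ tbD4 i k = -1) ∨
    (∃ i < tbD4.l, ∃ j < tbD4.l, ∃ a : ℕ, a < 7 ∧ ∃ b : ℕ, b < 7 ∧
      (((a : ℤ) - 3) * caZ tbD4 i k + ((b : ℤ) - 3) * caZ tbD4 j k = 1 ∨
       ((a : ℤ) - 3) * caZ tbD4 i k + ((b : ℤ) - 3) * caZ tbD4 j k = 2)) := by decide +kernel

theorem wcGenD4 : ∀ r < tbD4.n, tbD4.n ≤ 2 * r → (∃ j < tbD4.l, r = sLook Helper23.siD4 j) ∨
    ∃ j < tbD4.l, ∃ a < tbD4.n, tbD4.n ≤ 2 * a ∧ a ≠ sLook Helper23.siD4 j ∧ srt ((ct1 tbD4) a (sLook Helper23.siD4 j)) ∧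
      srt ((ct1 tbD4) (sLook Helper23.siD4 j) a) ∧
      hasU ((ct1 tbD4) a (sLook Helper23.siD4 j)) r ∧ hasU ((ct1 tbD4) (sLook Helper23.siD4 j) a) r ∧
      ∀ i < tbD4.l, dc (coLook tbD4.l tbD4.CO r i) ≠ 0 → dc (coLook tbD4.l tbD4.CO a i) ≠ 0 ∨ i = j := by
  decide +kernel

theorem wcTabD4 : WcTab tbD4 Helper23.siD4 (ct1 tbD4) 2 := ⟨wcSepD4, wcFullD4, wcGenD4⟩

end Cfsg.Agent.Lib.Helper22
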