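import Cfsg.Agent.Lib.Helper22.Wc1
import Cfsg.Agent.Lib.Helper23.NTabE7

set_option autoImplicit false
set_option maxRecDepth 1000000
set_option maxHeartbeats 0
set_option synthInstance.maxSize 4000
set_option synthInstance.maxHeartbeats 0

namespace Cfsg.Agent.Lib.Helper22
open Cfsg.Lie Matrix Cfsg.Agent.Lib.Helper23

theorem wcSepE7 : ∀ k < tbE7.n, tbE7.n ≤ 2 * k → ∀ s < tbE7.n, k < s →
    (∃ i < tbE7.l, ∃ j < tbE7.l, okN 1 (caZ tbE7 i k * caZ tbE7 j s - caZ tbE7 j k * caZ tbE7 i s)) ∨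
    (∃ i < tbE7.l, ∃ j < tbE7.l, ∃ a : ℕ, a < 7 ∧ ∃ b : ℕ, b < 7 ∧
      ((a : ℤ) - 3) * caZ tbE7 i s + ((b : ℤ) - 3) * caZ tbE7 j s = 0 ∧
      okN 1 (((a : ℤ) - 3) * caZ tbE7 i k + ((b : ℤ) - 3) * caZ tbE7 j k)) ∨
    (∃ c < tbE7.n, tbE7.n ≤ 2 * c ∧ c ≠ k ∧ (∀ s' < tbE7.n, s ≤ s' → c ≠ s' ∧ (ct1 tbE7) c s' = []) ∧
      srt ((ct1 tbE7) c k) ∧ hasU ((ct1 tbE7) c k) s) := by decide +kernel

theorem wcFullE7 : ∀ k < tbE7.n, tbE7.n ≤ 2 * k →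
    (∃ i < tbE7.l, caZ tbE7 i k = 1 ∨ caZ tbE7 i k = -1) ∨
    (∃ i < tbE7.l, ∃ j < tbE7.l, ∃ a : ℕ, a < 7 ∧ ∃ b : ℕ, b < 7 ∧
      (((a : ℤ) - 3) * caZ tbE7 i k + ((b : ℤ) - 3) * caZ tbE7 j k = 1 ∨
       ((a : ℤ) - 3) * caZ tbE7 i k + ((b : ℤ) - 3) * caZ tbE7 j k = 2)) := by decide +kernel

theorem wcGenE7 : ∀ r < tbE7.n, tbE7.n ≤ 2 * r → (∃ j < tbE7.l, r = sLook Helper23.siE7 j) ∨
    ∃ j < tbE7.l, ∃ a < tbE7.n, tbE7.n ≤ 2 * a ∧ a ≠ sLook Helper23.siE7 j ∧ srt ((ct1 tbE7) a (sLook Helper23.siE7 j)) ∧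
      srt ((ct1 tbE7) (sLook Helper23.siE7 j) a) ∧
      hasU ((ct1 tbE7) a (sLook Helper23.siE7 j)) r ∧ hasU ((ct1 tbE7) (sLook Helper23.siE7 j) a) r ∧
      ∀ i < tbE7.l, dc (coLook tbE7.l tbE7.CO r i) ≠ 0 → dc (coLook tbE7.l tbE7.CO a i) ≠ 0 ∨ i = j := by
  decide +kernel

theorem wcTabE7 : WcTab tbE7 Helper23.siE7 (ct1 tbE7) 1 := ⟨wcSepE7, wcFullE7, wcGenE7⟩

end Cfsg.Agent.Lib.Helper22
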