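import Cfsg.Agent.Lib.Helper22.Wc1
import Cfsg.Agent.Lib.Helper22.WcTabG2
import Cfsg.Agent.Lib.Helper22.WcTabB2
import Cfsg.Agent.Lib.Helper22.WcTabD4
import Cfsg.Agent.Lib.Helper22.WcTabF4
import Cfsg.Agent.Lib.Helper22.WcTabE6
import Cfsg.Agent.Lib.Helper22.WcTabE7
import Cfsg.Agent.Lib.Helper22.WcTabE8

/-!
# Weakly closed unipotent subgroups: the table facts for all the types
-/

set_option autoImplicit false

namespace Cfsg.Agent.Lib.Helper22
open Cfsg.Lie Matrix Cfsg.Agent.Lib.Helper23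

theorem wcFacts_two {D : ChevalleyDatum} (hD : D ∈ [chevG2, chevB2, chevD4, chevF4]) : WcFacts D 2 := by
  simp only [List.mem_cons, List.not_mem_nil, or_false] at hD
  rcases hD with rfl | rfl | rfl | rfl
  · exact wcFacts_of tbG2_valid hszG2 utabG2 (fun _ _ => rfl) usgnG2 ntG2_valid wcTabG2
  · exact wcFacts_of tbB2_valid hszB2 utabB2 (fun _ _ => rfl) usgnB2 ntB2_valid wcTabB2
  · exact wcFacts_of tbD4_valid hszD4 utabD4 (ct1_eq tbD4 rfl) usgnD4 ntD4_valid wcTabD4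
  · exact wcFacts_of tbF4_valid hszF4 utabF4 (fun _ _ => rfl) usgnF4 ntF4_valid wcTabF4

theorem wcFacts_one {D : ChevalleyDatum} (hD : D ∈ [chevE6, chevE7, chevE8]) : WcFacts D 1 := by
  simp only [List.mem_cons, List.not_mem_nil, or_false] at hD
  rcases hD with rfl | rfl | rfl
  · exact wcFacts_of tbE6_valid hszE6 utabE6 (ct1_eq tbE6 rfl) usgnE6 ntE6_valid wcTabE6
  · exact wcFacts_of tbE7_valid hszE7 utabE7 (ct1_eq tbE7 rfl) usgnE7 ntE7_valid wcTabE7
  · exact wcFacts_of tbE8_valid hszE8 utabE8 (ct1_eq tbE8 rfl) usgnE8 ntE8_valid wcTabE8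

end Cfsg.Agent.Lib.Helper22
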