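import Cfsg.Agent.Lib.Helper22.Wc4
import Cfsg.Agent.Lib.Helper22.WcAll
import Cfsg.Agent.Lib.Helper22.ParAll
import Cfsg.Agent.Lib.Helper23.ChevAll2

/-!
# Weakly closed unipotent subgroups: the statement for the seven types
-/

set_option autoImplicit false

namespace Cfsg.Agent.Lib.Helper22
open Cfsg.Lie Matrix Cfsg.Agent.Lib.Helper23

theorem exists_c_two {F : Type*} [Field F] [Fintype F] (h : 3 < Fintype.card F) :
    ∃ c : F, c ≠ 0 ∧ c ≠ 1 ∧ c ^ 2 ≠ 1 := by
  classical
  have h1 : ({0, 1, -1} : Finset F).card < (Finset.univ : Finset F).card :=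
    lt_of_le_of_lt Finset.card_le_three (by rwa [Finset.card_univ])
  obtain ⟨c, _, hc⟩ := Finset.exists_mem_notMem_of_card_lt_card h1
  simp only [Finset.mem_insert, Finset.mem_singleton, not_or] at hc
  refine ⟨c, hc.1, hc.2.1, fun h2 => ?_⟩
  rw [pow_two, mul_self_eq_one_iff] at h2
  rcases h2 with h2 | h2
  · exact hc.2.1 h2
  · exact hc.2.2 h2

theorem exists_c_one {F : Type*} [Field F] [Fintype F] (h : 2 < Fintype.card F) :
    ∃ c : F, c ≠ 0 ∧ c ≠ 1 ∧ c ^ 1 ≠ 1 := by
  classical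
  have h1 : ({0, 1} : Finset F).card < (Finset.univ : Finset F).card :=
    lt_of_le_of_lt Finset.card_le_two (by rwa [Finset.card_univ])
  obtain ⟨c, _, hc⟩ := Finset.exists_mem_notMem_of_card_lt_card h1
  simp only [Finset.mem_insert, Finset.mem_singleton, not_or] at hc
  exact ⟨c, hc.1, hc.2, by rw [pow_one]; exact hc.2⟩

theorem s2244_all {F : Type*} [Field F] [Fintype F] (D : ChevalleyDatum)
    (hD : D ∈ [chevG2, chevB2, chevD4, chevF4, chevE6, chevE7, chevE8])
    (h2 : Fintype.card F ≠ 2) (h3 : D ∈ [chevG2, chevB2, chevD4, chevF4] → Fintype.card F ≠ 3)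
    (X : Subgroup (GL D.Idx F)) (hXU : X ≤ D.posUnipotent F)
    (hwc : ∀ g ∈ D.group F, X.map (MulAut.conj g).toMonoidHom ≤ D.posUnipotent F →
      X.map (MulAut.conj g).toMonoidHom = X) :
    ∃ J : Set ℕ, (∀ j ∈ J, j < D.rank) ∧ X = D.unipotentRadical F J := by
  obtain ⟨co, pf⟩ := exists_parFacts hD
  have b := bundle_of_mem F hD
  have hCF : CommF D F := fun r s hr hs h1 h2 t u => Cfsg.Agent.S1025.result D hD r s hr hs h1 h2 t u
  have hUC := uComm_of_mem F hD
  have hS := torS_of_mem F hD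
  have hcard : 1 < Fintype.card F := Fintype.one_lt_card
  by_cases hD2 : D ∈ [chevG2, chevB2, chevD4, chevF4]
  · have := h3 hD2
    obtain ⟨c, hc0, hc1, hcm⟩ := exists_c_two (F := F) (by omega)
    exact s2244_of b pf hCF hUC hS (wcFacts_two hD2) hc0 hc1 hcm X hXU hwc
  · have hD1 : D ∈ [chevE6, chevE7, chevE8] := by
      simp only [List.mem_cons, List.not_mem_nil, or_false] at hD hD2 ⊢
      tauto
    obtain ⟨c, hc0, hc1, hcm⟩ := exists_c_one (F := F) (by omega)
    exact s2244_of b pf hCF hUC hS (wcFacts_one hD1) hc0 hc1 hcm X hXU hwc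

end Cfsg.Agent.Lib.Helper22
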